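import Cfsg.Agent.H65.Chev.PairCent
import Cfsg.Agent.H46.TypeF4

/-!
The two mixed involutions of type F₄ in characteristic two.
-/

set_option autoImplicit false
set_option maxRecDepth 10000

open Cfsg.Lie
open Cfsg.Agent.H46

namespace Cfsg.Agent.H65

variable {F : Type*} [Field F]

local notation "X" => Good.xg goodF4

theorem f4_lt {r : ℕ} (h : r < 48) : r < chevF4.nroots := h

/-- A root of F₄ as an index. -/
def f4R (r : ℕ) (h : r < 48) : Fin chevF4.nroots := ⟨r, f4_lt h⟩

/-- A fundamental root index of F₄. -/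
def f4I (i : ℕ) (h : i < 4) : Fin chevF4.rank := ⟨i, h⟩

theorem cast_eq_zero_of_two_dvd [CharP F 2] {a : ℤ} (h : (2 : ℤ) ∣ a) : (a : F) = 0 := by
  obtain ⟨m, rfl⟩ := h; push_cast; simp [CharTwo.two_eq_zero]

section W

theorem w_pos : ∀ r ∈ [44, 47], chevF4.IsPosRoot r := by decide +kernel
theorem w_neg : ∀ r ∈ [44, 47], ∀ s ∈ [44, 47], s ≠ chevF4.neg r := by decide +kernel
theorem w_closed : ∀ r ∈ [44, 47], ∀ s ∈ [44, 47], ∀ c ∈ chevF4.commTerms r s, c.1 ∈ [44, 47] := by decide +kernel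
theorem w_comm : ∀ r ∈ [44, 47], ∀ s ∈ [44, 47], s ≠ r → ∀ c ∈ chevF4.commTerms r s, (2 : ℤ) ∣ c.2.1 := by
  decide +kernel
theorem w_stable : ∀ r < 48, chevF4.IsPosRoot r → ∀ s ∈ [44, 47], s ≠ r →
    ∀ c ∈ chevF4.commTerms r s, (2 : ℤ) ∣ c.2.1 := by decide +kernel
theorem w_orth : ∀ p ∈ [44, 47], ∀ q ∈ [44, 47], p ≠ q → chevF4.pairing p q = chevF4.pairing 44 47 →
    (p = 44 ∧ q = 47) ∨ (p = 47 ∧ q = 44) := by decide +kernel
theorem w_unique : ∀ s < 48, chevF4.pairing 47 s = 2 → s = 47 := by decide +kernel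
theorem w_dom : ∀ r < 48, chevF4.IsNegRoot r →
    1 * chevF4.pairing r 44 + 1 * chevF4.pairing r 47 ≤ 0 := by decide +kernel
theorem w_high : ∀ i < 4, i ∉ [1, 2] → 0 < 1 * chevF4.cartan i 44 + 1 * chevF4.cartan i 47 := by decide +kernel
theorem w_fix : ∀ i ∈ [1, 2], chevF4.cartan i 44 = 0 ∧ chevF4.cartan i 47 = 0 := by decide +kernel

/-- Data for `x₄₄ x₄₇`. -/
def pairW (F : Type*) [Field F] [CharP F 2] : PairData chevF4 F where
  a := f4R 44 (by omega)
  b := f4R 47 (by omega)
  M := []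
  J := [f4I 1 (by omega), f4I 2 (by omega)]
  R := List.range' 24 24
  wa := 1
  wb := 1
  pos := fun r hr => w_pos r (List.mem_map_of_mem (f := Fin.val) hr)
  nodup := List.Nodup.of_map Fin.val (show [44, 47].Nodup by decide)
  neg := fun r hr s hs => w_neg r (List.mem_map_of_mem (f := Fin.val) hr) s (List.mem_map_of_mem (f := Fin.val) hs)
  closed := w_closed
  closedM := fun r hr => by simp at hr
  comm := fun r hr s hs hne c hc => cast_eq_zero_of_two_dvd
    (w_comm r (List.mem_map_of_mem (f := Fin.val) hr) s (List.mem_map_of_mem (f := Fin.val) hs)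
      (fun e => hne (Fin.ext e)) c hc)
  stable := fun r hr s hs hne c hc => Or.inl (cast_eq_zero_of_two_dvd
    (w_stable r hr.1 hr s (List.mem_map_of_mem (f := Fin.val) hs) hne c hc))
  orth := w_orth
  witness := ⟨f4R 46 (by omega), fun h => absurd (congrArg Fin.val h) (by simp [f4R]), by decide +kernel⟩
  unique := w_unique
  dom := fun r hr => w_dom r hr.1 hr
  low := fun r hr _ => List.mem_range'_1.2 (goodF4.isPosRoot_iff.1 hr)
  high := fun i hi => w_high i i.2 fun h => hi (by
    simp only [List.mem_cons, List.not_mem_nil, or_false] at h ⊢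
    rcases h with h | h
    · exact Or.inl (Fin.ext h)
    · exact Or.inr (Fin.ext h))
  fix := fun i hi => w_fix i (List.mem_map_of_mem (f := Fin.val) hi)

end W

section V

theorem v_pos : ∀ r ∈ [39, 45, 40, 44, 46, 47], chevF4.IsPosRoot r := by decide +kernel
theorem v_neg : ∀ r ∈ [39, 45, 40, 44, 46, 47], ∀ s ∈ [39, 45, 40, 44, 46, 47], s ≠ chevF4.neg r := by
  decide +kernel
theorem v_closed : ∀ r ∈ [39, 45, 40, 44, 46, 47], ∀ s ∈ [39, 45, 40, 44, 46, 47],
    ∀ c ∈ chevF4.commTerms r s, c.1 ∈ [39, 45, 40, 44, 46, 47] := by decide +kernel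
theorem v_closedM : ∀ r ∈ [40, 44, 46, 47], ∀ s ∈ [40, 44, 46, 47],
    ∀ c ∈ chevF4.commTerms r s, c.1 ∈ [40, 44, 46, 47] := by decide +kernel
theorem v_comm : ∀ r ∈ [39, 45, 40, 44, 46, 47], ∀ s ∈ [39, 45, 40, 44, 46, 47], s ≠ r →
    ∀ c ∈ chevF4.commTerms r s, (2 : ℤ) ∣ c.2.1 := by decide +kernel
theorem v_stable : ∀ r < 48, chevF4.IsPosRoot r → ∀ s ∈ [39, 45, 40, 44, 46, 47], s ≠ r →
    ∀ c ∈ chevF4.commTerms r s, (2 : ℤ) ∣ c.2.1 ∨ c.1 ∈ [40, 44, 46, 47] := by decide +kernel
theorem v_orth : ∀ p ∈ [39, 45, 40, 44, 46, 47], ∀ q ∈ [39, 45, 40, 44, 46, 47], p ≠ q →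
    chevF4.pairing p q = chevF4.pairing 39 45 → (p = 39 ∧ q = 45) ∨ (p = 45 ∧ q = 39) := by decide +kernel
theorem v_unique : ∀ s < 48, chevF4.pairing 45 s = 2 → s = 45 := by decide +kernel
theorem v_dom : ∀ r < 48, chevF4.IsNegRoot r →
    3 * chevF4.pairing r 39 + 2 * chevF4.pairing r 45 ≤ 0 := by decide +kernel
theorem v_low : ∀ r < 48, chevF4.IsPosRoot r →
    3 * chevF4.pairing r 39 + 2 * chevF4.pairing r 45 ≤ 0 → r ∈ [24, 33] := by decide +kernel
theorem v_high : ∀ i < 4, i ∉ [0, 3] → 0 < 3 * chevF4.cartan i 39 + 2 * chevF4.cartan i 45 := by decide +kernel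
theorem v_fix : ∀ i ∈ [0, 3], chevF4.cartan i 39 = 0 ∧ chevF4.cartan i 45 = 0 := by decide +kernel

/-- Data for `x₃₉ x₄₅`. -/
def pairV (F : Type*) [Field F] [CharP F 2] : PairData chevF4 F where
  a := f4R 39 (by omega)
  b := f4R 45 (by omega)
  M := [f4R 40 (by omega), f4R 44 (by omega), f4R 46 (by omega), f4R 47 (by omega)]
  J := [f4I 0 (by omega), f4I 3 (by omega)]
  R := [24, 33]
  wa := 3
  wb := 2
  pos := fun r hr => v_pos r (List.mem_map_of_mem (f := Fin.val) hr)
  nodup := List.Nodup.of_map Fin.val (show [39, 45, 40, 44, 46, 47].Nodup by decide)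
  neg := fun r hr s hs => v_neg r (List.mem_map_of_mem (f := Fin.val) hr) s (List.mem_map_of_mem (f := Fin.val) hs)
  closed := v_closed
  closedM := v_closedM
  comm := fun r hr s hs hne c hc => cast_eq_zero_of_two_dvd
    (v_comm r (List.mem_map_of_mem (f := Fin.val) hr) s (List.mem_map_of_mem (f := Fin.val) hs)
      (fun e => hne (Fin.ext e)) c hc)
  stable := fun r hr s hs hne c hc =>
    (v_stable r hr.1 hr s (List.mem_map_of_mem (f := Fin.val) hs) hne c hc).imp_left cast_eq_zero_of_two_dvd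
  orth := v_orth
  witness := ⟨f4R 46 (by omega), fun h => absurd (congrArg Fin.val h) (by simp [f4R]), by decide +kernel⟩
  unique := v_unique
  dom := fun r hr => v_dom r hr.1 hr
  low := fun r hr h => v_low r hr.1 hr h
  high := fun i hi => v_high i i.2 fun h => hi (by
    simp only [List.mem_cons, List.not_mem_nil, or_false] at h ⊢
    rcases h with h | h
    · exact Or.inl (Fin.ext h)
    · exact Or.inr (Fin.ext h))
  fix := fun i hi => v_fix i (List.mem_map_of_mem (f := Fin.val) hi)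

end V

variable [CharP F 2]

theorem f4_ng_mem (K : Subgroup (GL chevF4.Idx F)) (i : ℕ) (p n : ℕ) (hp : chevF4.simple i = p)
    (hn : chevF4.neg p = n) (h1 : ∀ t : F, X p t ∈ K) (h2 : ∀ t : F, X n t ∈ K) :
    goodF4.ng (chevF4.simple i) (1 : F) ∈ K := by
  rw [hp]
  refine mul_mem (mul_mem (h1 _) ?_) (h1 _)
  rw [hn]; exact h2 _

theorem f4_torus_mem (K : Subgroup (GL chevF4.Idx F)) (y : Fin chevF4.rank → Fˣ)
    (h : ∀ i : Fin chevF4.rank, y i = 1 ∨
      ((∀ t : F, X (chevF4.simple i) t ∈ K) ∧ ∀ t : F, X (chevF4.neg (chevF4.simple i)) t ∈ K)) :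
    goodF4.torus y ∈ K := by
  rw [← Finset.univ_prod_mulSingle y]
  refine Finset.prod_induction _ (fun w => goodF4.torus w ∈ K)
    (fun a b ha hb => by rw [map_mul]; exact mul_mem ha hb) (by rw [map_one]; exact one_mem _) fun k _ => ?_
  rcases h k with hk | ⟨h1, h2⟩
  · rw [hk, Pi.mulSingle_one, map_one]; exact one_mem _
  · rw [goodF4.torus_mulSingle]
    refine mul_mem ?_ ?_ <;> exact mul_mem (mul_mem (h1 _) (h2 _)) (h1 _)

omit [CharP F 2] in
theorem f4_torusVal (y : Fin chevF4.rank → Fˣ) {r : ℕ} (hr : r < 48) :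
    goodF4.torusVal y r = y (f4I 0 (by omega)) ^ chevF4.cartan 0 r * y (f4I 1 (by omega)) ^ chevF4.cartan 1 r *
      y (f4I 2 (by omega)) ^ chevF4.cartan 2 r * y (f4I 3 (by omega)) ^ chevF4.cartan 3 r := by
  rw [Good.torusVal, show (∏ k : Fin chevF4.rank, y k ^ goodF4.cartForm k (goodF4.rc r)) =
    ∏ k : Fin chevF4.rank, y k ^ chevF4.cartan k r from
    Finset.prod_congr rfl fun k _ => by rw [goodF4.cartan_eq (f4_lt hr) k.2]]
  exact Fin.prod_univ_four (fun k : Fin chevF4.rank => y k ^ chevF4.cartan k r)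

omit [CharP F 2] in
theorem commute_of_mem_closure {H : Type*} [Group H] {K : Subgroup H} {L : Subgroup H} {v : H}
    (h : K ≤ L ⊓ Subgroup.centralizer {v}) {x : H} (hx : x ∈ K) : Commute x v :=
  Subgroup.mem_centralizer_singleton_iff.mp (h hx).2

/-- Centraliser of `x₄₇ x₄₄`. -/
theorem f4_centralizer_w :
    chevF4.group F ⊓ Subgroup.centralizer {X 47 (1 : F) * X 44 1} =
      chevF4.posUnipotent F ⊔ chevF4.rootSubgroup F 20 ⊔ chevF4.rootSubgroup F 22 := by
  set K := chevF4.posUnipotent F ⊔ chevF4.rootSubgroup F 20 ⊔ chevF4.rootSubgroup F 22 with hK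
  have hU : chevF4.posUnipotent F ≤ K := le_sup_left.trans le_sup_left
  have m20 : ∀ t : F, X 20 t ∈ K := fun t =>
    Subgroup.mem_sup_left (Subgroup.mem_sup_right (goodF4.xg_mem_rootSubgroup 20 t))
  have m22 : ∀ t : F, X 22 t ∈ K := fun t => Subgroup.mem_sup_right (goodF4.xg_mem_rootSubgroup 22 t)
  have hpos : ∀ r, 24 ≤ r → r < 48 → ∀ t : F, X r t ∈ K := fun r h1 h2 t =>
    hU (goodF4.xg_mem_pos (goodF4.isPosRoot_iff.2 ⟨h1, h2⟩) t)
  have hc : X 47 (1 : F) * X 44 1 = X 44 1 * X 47 1 :=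
    ((pairW F).commute goodF4 (f4R 47 (by omega)) (f4R 44 (by omega)) (by simp [pairW]) (by simp [pairW]) 1 1).eq
  rw [hc]
  have hr : ∀ r ∈ [20, 22], ∀ s ∈ [44, 47], s ≠ r ∧ s ≠ chevF4.neg r ∧
      ∀ c ∈ chevF4.commTerms r s, (2 : ℤ) ∣ c.2.1 := by decide +kernel
  have hcen : ∀ r ∈ [20, 22], ∀ t : F, Commute (X r t) (X 44 (1 : F) * X 47 1) := fun r hr' t => by
    refine Commute.mul_right ?_ ?_
    · obtain ⟨h1, h2, h3⟩ := hr r hr' 44 (by simp)
      exact xg_commute goodF4 (f4_lt (by simp at hr'; omega)) (f4_lt (by omega)) h1 h2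
        (fun c hc => cast_eq_zero_of_two_dvd (h3 c hc)) t 1
    · obtain ⟨h1, h2, h3⟩ := hr r hr' 47 (by simp)
      exact xg_commute goodF4 (f4_lt (by simp at hr'; omega)) (f4_lt (by omega)) h1 h2
        (fun c hc => cast_eq_zero_of_two_dvd (h3 c hc)) t 1
  have hle : K ≤ chevF4.group F ⊓ Subgroup.centralizer {X 44 (1 : F) * X 47 1} := by
    refine sup_le (sup_le (fun u hu => ⟨goodF4.posUnipotent_le_group hu, ?_⟩) fun x hx => ?_) fun x hx => ?_
    · refine Subgroup.mem_centralizer_singleton_iff.mpr ?_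
      obtain ⟨m, hm, e⟩ := (pairW F).U_conj goodF4 hu 1 1 1 (one_mem _)
      have hm1 : m = 1 := by
        have hbot : goodF4.posSub (F := F) {s | s ∈ (pairW F).M.map Fin.val} = ⊥ := by
          rw [eq_bot_iff]
          refine (Subgroup.closure_le _).2 ?_
          rintro g ⟨r, t, ⟨-, hr⟩, rfl⟩
          simp [pairW] at hr
        rw [hbot] at hm
        exact Subgroup.mem_bot.1 hm
      rw [hm1, mul_one] at e
      exact mul_inv_eq_iff_eq_mul.1 e
    · obtain ⟨t, rfl⟩ := goodF4.mem_rootSubgroup.1 hx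
      exact ⟨goodF4.xg_mem_group _ _, Subgroup.mem_centralizer_singleton_iff.mpr (hcen 20 (by simp) t)⟩
    · obtain ⟨t, rfl⟩ := goodF4.mem_rootSubgroup.1 hx
      exact ⟨goodF4.xg_mem_group _ _, Subgroup.mem_centralizer_singleton_iff.mpr (hcen 22 (by simp) t)⟩
  refine (pairW F).centralizer goodF4 K ?_ ?_ hle ?_
  · intro i hi
    simp only [pairW, List.mem_cons, List.not_mem_nil, or_false] at hi
    rcases hi with rfl | rfl
    · exact f4_ng_mem K 1 27 20 (by decide +kernel) (by decide +kernel) (hpos 27 (by omega) (by omega)) m20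
    · exact f4_ng_mem K 2 25 22 (by decide +kernel) (by decide +kernel) (hpos 25 (by omega) (by omega)) m22
  · intro r hr t
    obtain ⟨h24, h48⟩ := List.mem_range'_1.1 hr
    exact hpos r h24 h48 t
  · intro s hs y ha hb _
    refine mul_mem (hU hs) (f4_torus_mem K y fun i => ?_)
    have hi : (i : ℕ) = 0 ∨ (i : ℕ) = 1 ∨ (i : ℕ) = 2 ∨ (i : ℕ) = 3 := by
      have := i.isLt; simp only [show chevF4.rank = 4 from rfl] at this; omega
    change goodF4.torusVal y 44 = 1 at ha
    change goodF4.torusVal y 47 = 1 at hb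
    rw [f4_torusVal y (by omega), show chevF4.cartan 0 44 = 1 by decide +kernel,
      show chevF4.cartan 1 44 = 0 by decide +kernel, show chevF4.cartan 2 44 = 0 by decide +kernel,
      show chevF4.cartan 3 44 = 0 by decide +kernel] at ha
    rw [f4_torusVal y (by omega), show chevF4.cartan 0 47 = 0 by decide +kernel,
      show chevF4.cartan 1 47 = 0 by decide +kernel, show chevF4.cartan 2 47 = 0 by decide +kernel,
      show chevF4.cartan 3 47 = 1 by decide +kernel] at hb
    simp only [zpow_one, zpow_zero, mul_one, one_mul] at ha hb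
    rcases hi with hi | hi | hi | hi
    · left; rw [show i = f4I 0 (by omega) from Fin.ext hi]; exact ha
    · right; rw [hi, show chevF4.simple 1 = 27 by decide +kernel, show chevF4.neg 27 = 20 by decide +kernel]
      exact ⟨hpos 27 (by omega) (by omega), m20⟩
    · right; rw [hi, show chevF4.simple 2 = 25 by decide +kernel, show chevF4.neg 25 = 22 by decide +kernel]
      exact ⟨hpos 25 (by omega) (by omega), m22⟩
    · left; rw [show i = f4I 3 (by omega) from Fin.ext hi]; exact hb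

omit [CharP F 2] in
/-- `x₃₉x₄₅` times the four roots above it. -/
noncomputable def f4V (q : F × F × F × F) : GL chevF4.Idx F :=
  X 39 1 * X 45 1 * (X 40 q.1 * (X 44 q.2.1 * (X 46 q.2.2.1 * X 47 q.2.2.2)))

omit [CharP F 2] in
theorem f4_conj_six {H : Type*} [Group H] (x a b c d e f : H) :
    x * (a * b * (c * (d * (e * f)))) * x⁻¹ =
      (x * a * x⁻¹) * (x * b * x⁻¹) * ((x * c * x⁻¹) * ((x * d * x⁻¹) * ((x * e * x⁻¹) * (x * f * x⁻¹)))) := by
  group

theorem f4_conj_fix {r s : ℕ} (hr : r < 48) (hs : s < 48) (hne : s ≠ chevF4.neg r)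
    (h : ∀ c ∈ chevF4.commTerms r s, (2 : ℤ) ∣ c.2.1) (t u : F) : X r t * X s u * (X r t)⁻¹ = X s u := by
  by_cases h' : s = r
  · subst h'; rw [goodF4.xg_inv, goodF4.xg_add, goodF4.xg_add, add_neg_cancel_comm]
  · rw [(xg_commute goodF4 (f4_lt hr) (f4_lt hs) h' hne (fun c hc => cast_eq_zero_of_two_dvd (h c hc)) t u : _),
      mul_inv_cancel_right]

theorem f4_conj_one {r s k : ℕ} (hr : r < 48) (hs : s < 48) (hne : s ≠ chevF4.neg r) (hsr : s ≠ r)
    (L : List (ℕ × ℤ × ℕ × ℕ)) (c : ℤ) (hL : chevF4.commTerms r s = (k, c, 1, 1) :: L)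
    (hc : c = 1 ∨ c = -1) (hev : ∀ e ∈ L, (2 : ℤ) ∣ e.2.1) (t u : F) :
    X r t * X s u * (X r t)⁻¹ = X s u * X k (t * u) := by
  apply Units.ext
  have h := goodF4.x_mul_x (f4_lt hr) (f4_lt hs) hsr hne (-t) u (F := F)
  rw [goodF4.xg_inv, Units.val_mul, Units.val_mul, Units.val_mul, goodF4.coe_xg, goodF4.coe_xg, goodF4.coe_xg,
    goodF4.coe_xg, mul_assoc, h, ← mul_assoc, ← mul_assoc, goodF4.x_add', add_neg_cancel, goodF4.x_zero', one_mul]
  congr 1
  rw [ChevalleyDatum.commWord, hL, List.map_cons, wordMat_cons,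
    show chevF4.wordMat F (L.map fun e => (e.1, (e.2.1 : F) * (- -t) ^ e.2.2.1 * u ^ e.2.2.2)) = 1 from
      List.prod_eq_one fun a ha => by
        simp only [List.map_map, List.mem_map, Function.comp_def] at ha
        obtain ⟨e, he, rfl⟩ := ha
        simp [cast_eq_zero_of_two_dvd (hev e he), goodF4.x_zero'], mul_one]
  rcases hc with rfl | rfl <;> simp [CharTwo.neg_eq]

omit [CharP F 2] in
/-- The effect of one root element on the coordinates. -/
def f4upd (r : ℕ) (t : F) (q : F × F × F × F) : F × F × F × F :=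
  if r = 27 then (q.1 + t, q.2)
  else if r = 34 then (q.1, q.2.1 + t, q.2.2)
  else if r = 33 then (q.1, q.2.1 + t * q.1, q.2.2)
  else if r = 25 then (q.1, q.2.1, q.2.2.1 + t, q.2.2.2)
  else if r = 26 then (q.1, q.2.1, q.2.2.1, q.2.2.2 + t)
  else if r = 24 then (q.1, q.2.1, q.2.2.1, q.2.2.2 + t * q.2.2.1)
  else q

theorem f4V_conj {r : ℕ} (h1 : 24 ≤ r) (h2 : r < 48) (t : F) (q : F × F × F × F) :
    X r t * f4V q * (X r t)⁻¹ = f4V (f4upd r t q) := by
  obtain ⟨b, c, e, f⟩ := q
  have cc : ∀ p ∈ [39, 45, 40, 44, 46, 47], ∀ s ∈ [39, 45, 40, 44, 46, 47], ∀ u v : F,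
      Commute (X p u) (X s v) := by
    intro p hp s hs u v
    obtain ⟨p', hp', rfl⟩ : ∃ p' ∈ (pairV F).a :: (pairV F).b :: (pairV F).M, (p' : ℕ) = p := List.mem_map.1 hp
    obtain ⟨s', hs', rfl⟩ : ∃ s' ∈ (pairV F).a :: (pairV F).b :: (pairV F).M, (s' : ℕ) = s := List.mem_map.1 hs
    exact (pairV F).commute goodF4 p' s' hp' hs' u v
  have hfix : ∀ r < 48, 24 ≤ r → ∀ s ∈ [39, 45, 40, 44, 46, 47],
      (r, s) ∉ [(27, 39), (34, 39), (25, 45), (26, 45), (33, 40), (24, 46)] →
      s ≠ chevF4.neg r ∧ (∀ c ∈ chevF4.commTerms r s, (2 : ℤ) ∣ c.2.1) := by decide +kernel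
  have fx : ∀ s ∈ [39, 45, 40, 44, 46, 47],
      (r, s) ∉ [(27, 39), (34, 39), (25, 45), (26, 45), (33, 40), (24, 46)] → ∀ u : F,
      X r t * X s u * (X r t)⁻¹ = X s u := fun s hs hn u => by
    have hs' : s < 48 := by
      simp only [List.mem_cons, List.not_mem_nil, or_false] at hs; omega
    exact f4_conj_fix h2 hs' (hfix r h2 h1 s hs hn).1 (hfix r h2 h1 s hs hn).2 t u
  rw [f4V, f4_conj_six]
  by_cases h27 : r = 27
  · subst h27
    rw [f4_conj_one (k := 40) (by omega) (by omega) (by decide +kernel) (by omega) _ _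
        (show chevF4.commTerms 27 39 = (40, (chevF4.commTerms 27 39).head!.2.1, 1, 1) :: [] by decide +kernel)
        (by decide +kernel) (by simp) t 1, fx 45 (by simp) (by simp), fx 40 (by simp) (by simp),
      fx 44 (by simp) (by simp), fx 46 (by simp) (by simp), fx 47 (by simp) (by simp), mul_one]
    simp only [f4V, f4upd, if_true]
    rw [mul_assoc (X 39 1) (X 40 t), (cc 40 (by simp) 45 (by simp) t 1).eq, add_comm b t, ← goodF4.xg_add 40 t b]
    simp only [mul_assoc]
  by_cases h34 : r = 34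
  · subst h34
    rw [f4_conj_one (k := 44) (by omega) (by omega) (by decide +kernel) (by omega) _ _
        (show chevF4.commTerms 34 39 = (44, (chevF4.commTerms 34 39).head!.2.1, 1, 1) :: [] by decide +kernel)
        (by decide +kernel) (by simp) t 1, fx 45 (by simp) (by simp), fx 40 (by simp) (by simp),
      fx 44 (by simp) (by simp), fx 46 (by simp) (by simp), fx 47 (by simp) (by simp), mul_one]
    simp only [f4V, f4upd, if_true, if_neg h27]
    rw [mul_assoc (X 39 1) (X 44 t), (cc 44 (by simp) 45 (by simp) t 1).eq, add_comm c t, ← goodF4.xg_add 44 t c]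
    simp only [mul_assoc]
    rw [(cc 40 (by simp) 44 (by simp) b t).left_comm]
  by_cases h33 : r = 33
  · subst h33
    rw [f4_conj_one (k := 44) (by omega) (by omega) (by decide +kernel) (by omega) _ _
        (show chevF4.commTerms 33 40 = (44, (chevF4.commTerms 33 40).head!.2.1, 1, 1) :: [] by decide +kernel)
        (by decide +kernel) (by simp) t b, fx 39 (by simp) (by simp), fx 45 (by simp) (by simp),
      fx 44 (by simp) (by simp), fx 46 (by simp) (by simp), fx 47 (by simp) (by simp)]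
    simp only [f4V, f4upd, if_true, if_neg h27, if_neg h34]
    rw [add_comm c, ← goodF4.xg_add 44 (t * b) c]
    simp only [mul_assoc]
  by_cases h25 : r = 25
  · subst h25
    rw [f4_conj_one (k := 46) (by omega) (by omega) (by decide +kernel) (by omega) _ _
        (show chevF4.commTerms 25 45 = (46, (chevF4.commTerms 25 45).head!.2.1, 1, 1) :: [] by decide +kernel)
        (by decide +kernel) (by simp) t 1, fx 39 (by simp) (by simp), fx 40 (by simp) (by simp),
      fx 44 (by simp) (by simp), fx 46 (by simp) (by simp), fx 47 (by simp) (by simp), mul_one]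
    simp only [f4V, f4upd, if_true, if_neg h27, if_neg h34, if_neg h33]
    rw [add_comm e, ← goodF4.xg_add 46 t e]
    simp only [mul_assoc]
    rw [(cc 40 (by simp) 46 (by simp) b t).symm.left_comm, (cc 44 (by simp) 46 (by simp) c t).symm.left_comm]
  by_cases h26 : r = 26
  · subst h26
    rw [f4_conj_one (k := 47) (by omega) (by omega) (by decide +kernel) (by omega) _ _
        (show chevF4.commTerms 26 45 = (47, (chevF4.commTerms 26 45).head!.2.1, 1, 1) :: [] by decide +kernel)
        (by decide +kernel) (by simp) t 1, fx 39 (by simp) (by simp), fx 40 (by simp) (by simp),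
      fx 44 (by simp) (by simp), fx 46 (by simp) (by simp), fx 47 (by simp) (by simp), mul_one]
    simp only [f4V, f4upd, if_true, if_neg h27, if_neg h34, if_neg h33, if_neg h25]
    rw [add_comm f, ← goodF4.xg_add 47 t f]
    simp only [mul_assoc]
    rw [(cc 40 (by simp) 47 (by simp) b t).symm.left_comm, (cc 44 (by simp) 47 (by simp) c t).symm.left_comm,
      (cc 46 (by simp) 47 (by simp) e t).symm.left_comm]
  by_cases h24 : r = 24
  · subst h24
    rw [f4_conj_one (k := 47) (by omega) (by omega) (by decide +kernel) (by omega) _ _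
        (show chevF4.commTerms 24 46 = (47, (chevF4.commTerms 24 46).head!.2.1, 1, 1) :: [] by decide +kernel)
        (by decide +kernel) (by simp) t e, fx 39 (by simp) (by simp), fx 45 (by simp) (by simp),
      fx 40 (by simp) (by simp), fx 44 (by simp) (by simp), fx 47 (by simp) (by simp)]
    simp only [f4V, f4upd, if_true, if_neg h27, if_neg h34, if_neg h33, if_neg h25, if_neg h26]
    rw [add_comm f, ← goodF4.xg_add 47 (t * e) f]
    simp only [mul_assoc]
  simp only [f4V, f4upd, if_neg h27, if_neg h34, if_neg h33, if_neg h25, if_neg h26, if_neg h24]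
  rw [fx 39 (by simp) (by simp [h27, h34]), fx 45 (by simp) (by simp [h25, h26]),
    fx 40 (by simp) (by simp [h33]), fx 44 (by simp) (by simp), fx 46 (by simp) (by simp [h24]),
    fx 47 (by simp) (by simp)]

theorem f4V_conj_word (L : List ℕ) (hL : ∀ r ∈ L, 24 ≤ r ∧ r < 48) (t : ℕ → F) (q : F × F × F × F) :
    (L.map fun r => X r (t r)).prod * f4V q * ((L.map fun r => X r (t r)).prod)⁻¹ =
      f4V (L.foldr (fun r q => f4upd r (t r) q) q) := by
  induction L with
  | nil => simp
  | cons a L ih =>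
    rw [List.map_cons, List.prod_cons, List.foldr_cons, ← f4V_conj (hL a List.mem_cons_self).1
      (hL a List.mem_cons_self).2, ← ih (fun r hr => hL r (List.mem_cons_of_mem _ hr))]
    group

theorem f4V_inj {q : F × F × F × F} (h : f4V q = f4V 0) : q = 0 := by
  obtain ⟨b, c, e, f⟩ := q
  have h' : X 40 b * (X 44 c * (X 46 e * X 47 f)) = 1 := by
    simpa [f4V, goodF4.xg_zero] using h
  have hM : ∀ r ∈ (pairV F).M, r ∈ (pairV F).a :: (pairV F).b :: (pairV F).M := fun r hr =>
    List.mem_cons_of_mem _ (List.mem_cons_of_mem _ hr)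
  obtain ⟨t, ht, -, hp⟩ := prod_eq_ordProd goodF4 (pairV F).M Fin.val
    (fun r => if (r : ℕ) = 40 then b else if (r : ℕ) = 44 then c else if (r : ℕ) = 46 then e else f)
    (fun r hr => (pairV F).pos r (hM r hr))
    (show [40, 44, 46, 47].Nodup by decide) (fun r hr s hs => (pairV F).commute goodF4 r s (hM r hr) (hM s hs) _ _)
  have h0 : goodF4.ordProd (chevF4.nroots / 2) (0 : ℕ → F) = 1 := by
    rw [Good.ordProd]
    exact List.prod_eq_one fun x hx => by
      obtain ⟨r, -, rfl⟩ := List.mem_map.1 hx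
      exact goodF4.xg_zero r
  have hp' : goodF4.ordProd (chevF4.nroots / 2) t = 1 := by
    rw [← hp]; simpa [pairV, f4R] using h'
  have htt := fun r (h1 : 24 ≤ r) (h2 : r < 48) =>
    goodF4.ordProd_injective _ le_rfl t 0 (hp'.trans h0.symm) r h1 h2
  have e1 := ht (f4R 40 (by omega)) (by simp [pairV])
  have e2 := ht (f4R 44 (by omega)) (by simp [pairV])
  have e3 := ht (f4R 46 (by omega)) (by simp [pairV])
  have e4 := ht (f4R 47 (by omega)) (by simp [pairV])
  simp [f4R, htt] at e1 e2 e3 e4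
  simp [e1.symm, e2.symm, e3.symm, e4.symm]

/-- Centraliser of `x₃₉ x₄₅`. -/
theorem f4_centralizer_v (K : Subgroup (GL chevF4.Idx F))
    (hKdef : K = chevF4.rootSubgroup F 33 ⊔ chevF4.rootSubgroup F 14 ⊔ chevF4.rootSubgroup F 24 ⊔
      chevF4.rootSubgroup F 23 ⊔ Subgroup.closure {g : GL chevF4.Idx F | ∃ (r : ℕ) (c : F),
        chevF4.IsPosRoot r ∧ r ∉ [27, 25, 34, 26] ∧ (g : Matrix chevF4.Idx chevF4.Idx F) = chevF4.x F r c}) :
    chevF4.group F ⊓ Subgroup.centralizer {X 39 (1 : F) * X 45 1} = K := by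
  have hpos : ∀ r, 24 ≤ r → r < 48 → r ∉ [27, 25, 34, 26] → ∀ t : F, X r t ∈ K := fun r h1 h2 h3 t => by
    rw [hKdef]
    exact Subgroup.mem_sup_right (Subgroup.subset_closure
      ⟨r, t, goodF4.isPosRoot_iff.2 ⟨h1, h2⟩, h3, rfl⟩)
  have m14 : ∀ t : F, X 14 t ∈ K := fun t => by
    rw [hKdef]
    exact Subgroup.mem_sup_left (Subgroup.mem_sup_left (Subgroup.mem_sup_left (Subgroup.mem_sup_right
      (goodF4.xg_mem_rootSubgroup 14 t))))
  have m23 : ∀ t : F, X 23 t ∈ K := fun t => by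
    rw [hKdef]
    exact Subgroup.mem_sup_left (Subgroup.mem_sup_right (goodF4.xg_mem_rootSubgroup 23 t))
  have hr : ∀ r < 48, (r = 14 ∨ r = 23 ∨ (24 ≤ r ∧ r ∉ [27, 25, 34, 26])) → ∀ s ∈ [39, 45],
      s ≠ chevF4.neg r ∧ ∀ c ∈ chevF4.commTerms r s, (2 : ℤ) ∣ c.2.1 := by decide +kernel
  have hcen : ∀ r < 48, (r = 14 ∨ r = 23 ∨ (24 ≤ r ∧ r ∉ [27, 25, 34, 26])) → ∀ t : F,
      X r t ∈ Subgroup.centralizer {X 39 (1 : F) * X 45 1} := fun r h48 hr' t => by
    obtain ⟨a1, a2⟩ := hr r h48 hr' 39 (by simp)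
    obtain ⟨b1, b2⟩ := hr r h48 hr' 45 (by simp)
    refine Subgroup.mem_centralizer_singleton_iff.mpr (mul_inv_eq_iff_eq_mul.1 ?_)
    rw [show X r t * (X 39 1 * X 45 1) * (X r t)⁻¹ =
      (X r t * X 39 1 * (X r t)⁻¹) * (X r t * X 45 1 * (X r t)⁻¹) by group,
      f4_conj_fix h48 (by omega) a1 a2, f4_conj_fix h48 (by omega) b1 b2]
  have hroot : ∀ r < 48, (r = 14 ∨ r = 23 ∨ (24 ≤ r ∧ r ∉ [27, 25, 34, 26])) →
      chevF4.rootSubgroup F r ≤ chevF4.group F ⊓ Subgroup.centralizer {X 39 (1 : F) * X 45 1} :=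
    fun r h48 hr' x hx => by
      obtain ⟨t, rfl⟩ := goodF4.mem_rootSubgroup.1 hx
      exact ⟨goodF4.xg_mem_group _ _, hcen r h48 hr' t⟩
  have hle : K ≤ chevF4.group F ⊓ Subgroup.centralizer {X 39 (1 : F) * X 45 1} := by
    rw [hKdef]
    refine sup_le (sup_le (sup_le (sup_le (hroot 33 (by omega) (by simp)) (hroot 14 (by omega) (by simp)))
      (hroot 24 (by omega) (by simp))) (hroot 23 (by omega) (by simp))) ((Subgroup.closure_le _).2 ?_)
    rintro g ⟨r, c, hr', hn, hg⟩
    rw [goodF4.eq_xg hg]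
    exact ⟨goodF4.xg_mem_group _ _, hcen r hr'.1 (Or.inr (Or.inr ⟨(goodF4.isPosRoot_iff.1 hr').1, hn⟩)) c⟩
  refine (pairV F).centralizer goodF4 K ?_ ?_ hle ?_
  · intro i hi
    simp only [pairV, List.mem_cons, List.not_mem_nil, or_false] at hi
    rcases hi with rfl | rfl
    · exact f4_ng_mem K 0 33 14 (by decide +kernel) (by decide +kernel)
        (hpos 33 (by omega) (by omega) (by simp)) m14
    · exact f4_ng_mem K 3 24 23 (by decide +kernel) (by decide +kernel)
        (hpos 24 (by omega) (by omega) (by simp)) m23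
  · intro r hr t
    simp only [pairV, List.mem_cons, List.not_mem_nil, or_false] at hr
    rcases hr with rfl | rfl <;> exact hpos _ (by omega) (by omega) (by simp) t
  · intro s hs y ha hb hsy
    change goodF4.torusVal y 39 = 1 at ha
    change goodF4.torusVal y 45 = 1 at hb
    have hy1 : y (f4I 1 (by omega)) = 1 ∧ y (f4I 2 (by omega)) = 1 := by
      rw [f4_torusVal y (by omega), show chevF4.cartan 0 39 = 0 by decide +kernel,
        show chevF4.cartan 1 39 = -1 by decide +kernel, show chevF4.cartan 2 39 = 1 by decide +kernel,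
        show chevF4.cartan 3 39 = 0 by decide +kernel] at ha
      rw [f4_torusVal y (by omega), show chevF4.cartan 0 45 = 0 by decide +kernel,
        show chevF4.cartan 1 45 = 2 by decide +kernel, show chevF4.cartan 2 45 = -1 by decide +kernel,
        show chevF4.cartan 3 45 = 0 by decide +kernel] at hb
      simp only [zpow_neg, zpow_one, zpow_zero, mul_one, one_mul, zpow_two, inv_mul_eq_one] at ha hb
      rw [ha, mul_inv_cancel_right] at hb
      exact ⟨ha.trans hb, hb⟩
    have hty : Commute (goodF4.torus y) (X 39 (1 : F) * X 45 1) := by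
      change _ = _
      rw [← mul_inv_eq_iff_eq_mul, show goodF4.torus y * (X 39 1 * X 45 1) * (goodF4.torus y)⁻¹ =
        (goodF4.torus y * X 39 1 * (goodF4.torus y)⁻¹) * (goodF4.torus y * X 45 1 * (goodF4.torus y)⁻¹) by group,
        goodF4.torus_conj_xg y (f4_lt (by omega)), goodF4.torus_conj_xg y (f4_lt (by omega)), ha, hb, Units.val_one,
        one_mul]
    have hsv : Commute s (X 39 (1 : F) * X 45 1) := by
      have := hsy.mul_left hty.inv_left
      rwa [mul_inv_cancel_right] at this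
    refine mul_mem ?_ (f4_torus_mem K y fun i => ?_)
    · rw [goodF4.posUnipotent_eq] at hs
      obtain ⟨t, ⟨-, rfl⟩, -⟩ := goodF4.posSub_normal_form goodF4.posClosed_univ hs
      have hfold : f4V ((List.range' 24 24).foldr (fun r q => f4upd r (t r) q) (0 : F × F × F × F)) = f4V 0 := by
        rw [← f4V_conj_word _ (fun r hr => by rw [List.mem_range'_1] at hr; omega) t 0]
        have e0 : f4V (0 : F × F × F × F) = X 39 1 * X 45 1 := by simp [f4V, goodF4.xg_zero]
        rw [e0]
        exact mul_inv_eq_iff_eq_mul.2 hsv.eq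
      have hq := f4V_inj hfold
      have hlist : List.range' 24 24 = [24, 25, 26, 27, 28, 29, 30, 31, 32, 33, 34, 35, 36, 37, 38, 39, 40, 41,
        42, 43, 44, 45, 46, 47] := by decide
      rw [hlist] at hq
      simp [f4upd, Prod.ext_iff] at hq
      obtain ⟨h27, h34, h25, h26⟩ := hq
      have hz : ∀ r ∈ [27, 25, 34, 26], t r = 0 := by
        intro r hr
        simp only [List.mem_cons, List.not_mem_nil, or_false] at hr
        rcases hr with rfl | rfl | rfl | rfl <;> first | assumption | simpa [h25] using h26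
      refine Subgroup.list_prod_mem _ fun x hx => ?_
      obtain ⟨r, hr, rfl⟩ := List.mem_map.1 hx
      rw [List.mem_range'_1] at hr
      have hr' : 24 ≤ r ∧ r < 48 := by
        simp only [show chevF4.nroots = 48 from rfl] at hr; omega
      by_cases hmem : r ∈ [27, 25, 34, 26]
      · rw [hz r hmem, goodF4.xg_zero]; exact one_mem _
      · exact hpos r hr'.1 hr'.2 hmem _
    · have hi : (i : ℕ) = 0 ∨ (i : ℕ) = 1 ∨ (i : ℕ) = 2 ∨ (i : ℕ) = 3 := by
        have := i.isLt; simp only [show chevF4.rank = 4 from rfl] at this; omega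
      rcases hi with hi | hi | hi | hi
      · right; rw [hi, show chevF4.simple 0 = 33 by decide +kernel, show chevF4.neg 33 = 14 by decide +kernel]
        exact ⟨hpos 33 (by omega) (by omega) (by simp), m14⟩
      · left; rw [show i = f4I 1 (by omega) from Fin.ext hi]; exact hy1.1
      · left; rw [show i = f4I 2 (by omega) from Fin.ext hi]; exact hy1.2
      · right; rw [hi, show chevF4.simple 3 = 24 by decide +kernel, show chevF4.neg 24 = 23 by decide +kernel]
        exact ⟨hpos 24 (by omega) (by omega) (by simp), m23⟩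

end Cfsg.Agent.H65
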