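import Cfsg.Agent.H65.Chev.G2

/-!
Centraliser of `x_{2a+b}(1)` in type G₂ in characteristic two.
-/

set_option autoImplicit false

open Cfsg.Lie
open Cfsg.Agent.H46

namespace Cfsg.Agent.H65

variable {F : Type*} [Field F] [CharP F 2]

local notation "X" => Good.xg goodG2

omit [CharP F 2] in
theorem conj_eq_of_comm {H : Type*} [Group H] {x y w : H} (h : y * x = x * y * w) (hw : Commute x w) :
    x * y * x⁻¹ = y * w⁻¹ := by
  have h1 : y * w⁻¹ * x = x * y := by
    rw [mul_assoc, ← hw.inv_right.eq, ← mul_assoc, h, mul_inv_cancel_right]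
  rw [← h1, mul_inv_cancel_right]

omit [CharP F 2] in
theorem conj_eq_self {H : Type*} [Group H] {x y : H} (h : Commute x y) : x * y * x⁻¹ = y := by
  rw [h.eq, mul_inv_cancel_right]

theorem g2_inv (r : ℕ) (t : F) : (X r t)⁻¹ = X r t := by rw [goodG2.xg_inv, CharTwo.neg_eq]

theorem g2_conj79 (t c : F) : X 7 t * X 9 c * (X 7 t)⁻¹ = X 9 c * X 10 (t * c) := by
  rw [conj_eq_of_comm (g2_comm79 t c) (g2_commute (by simp) _ _), g2_inv 10]

theorem g2_conj89 (t c : F) : X 8 t * X 9 c * (X 8 t)⁻¹ = X 9 c * X 11 (t * c) := by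
  rw [conj_eq_of_comm (g2_comm89 t c) (g2_commute (by simp) _ _), g2_inv 11]

theorem g2_conj610 (t c : F) : X 6 t * X 10 c * (X 6 t)⁻¹ = X 10 c * X 11 (t * c) := by
  rw [conj_eq_of_comm (g2_comm610 t c) (g2_commute (by simp) _ _), g2_inv 11]

/-- `U` fixes the `x₉` part of `x₉x₁₀x₁₁`. -/
theorem g2_U_conj {u : GL chevG2.Idx F} (hu : u ∈ chevG2.posUnipotent F) :
    ∀ c e f : F, ∃ e' f' : F, u * (X 9 c * X 10 e * X 11 f) * u⁻¹ = X 9 c * X 10 e' * X 11 f' := by
  have gen : ∀ r t, chevG2.IsPosRoot r → ∀ c e f : F,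
      ∃ e' f' : F, X r t * (X 9 c * X 10 e * X 11 f) * (X r t)⁻¹ = X 9 c * X 10 e' * X 11 f' := by
    intro r t hr c e f
    set x := X r t with hx
    have hsplit : x * (X 9 c * X 10 e * X 11 f) * x⁻¹ =
        (x * X 9 c * x⁻¹) * (x * X 10 e * x⁻¹) * (x * X 11 f * x⁻¹) := by group
    rw [hsplit]
    rcases g2_pos_cases hr with rfl | rfl | rfl | rfl | rfl | rfl
    · refine ⟨e, t * e + f, ?_⟩
      rw [hx, g2_conj610, conj_eq_self (g2_commute (by simp) t c), conj_eq_self (g2_commute (by simp) t f)]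
      simp only [mul_assoc, goodG2.xg_add]
    · refine ⟨t * c + e, f, ?_⟩
      rw [hx, g2_conj79, conj_eq_self (g2_commute (by simp) t e), conj_eq_self (g2_commute (by simp) t f)]
      simp only [mul_assoc, ← goodG2.xg_add 10]
    · refine ⟨e, t * c + f, ?_⟩
      rw [hx, g2_conj89, conj_eq_self (g2_commute (by simp) t e), conj_eq_self (g2_commute (by simp) t f),
        mul_assoc (X 9 c), ← (g2_commute (F := F) (by simp) e (t * c) : Commute (X 10 e) (X 11 (t * c))).eq]
      simp only [mul_assoc, goodG2.xg_add]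
    · refine ⟨e, f, ?_⟩
      rw [hx, conj_eq_self (g2_commute (by simp) t e), conj_eq_self (g2_commute (by simp) t f)]
      simp only [goodG2.xg_inv, goodG2.xg_add, add_comm t c, add_neg_cancel_right]
    · refine ⟨e, f, ?_⟩
      rw [hx, conj_eq_self (g2_commute (F := F) (r := 9) (s := 10) (by simp) c t).symm,
        conj_eq_self (g2_commute (by simp) t f)]
      simp only [goodG2.xg_inv, goodG2.xg_add, add_comm t e, add_neg_cancel_right]
    · refine ⟨e, f, ?_⟩
      rw [hx, conj_eq_self (g2_commute (F := F) (r := 9) (s := 11) (by simp) c t).symm,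
        conj_eq_self (g2_commute (F := F) (r := 10) (s := 11) (by simp) e t).symm]
      simp only [goodG2.xg_inv, goodG2.xg_add, add_comm t f, add_neg_cancel_right]
  rw [ChevalleyDatum.posUnipotent] at hu
  induction hu using Subgroup.closure_induction'' with
  | mem x hx => obtain ⟨r, t, hr, hx⟩ := hx; rw [goodG2.eq_xg hx]; exact gen r t hr
  | inv_mem x hx =>
    obtain ⟨r, t, hr, hx⟩ := hx
    rw [goodG2.eq_xg hx, g2_inv]; exact gen r t hr
  | one => exact fun c e f => ⟨e, f, by simp⟩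
  | mul a b _ _ iha ihb =>
    intro c e f
    obtain ⟨e1, f1, h1⟩ := ihb c e f
    obtain ⟨e2, f2, h2⟩ := iha c e1 f1
    exact ⟨e2, f2, by rw [← h2, ← h1]; group⟩

omit [CharP F 2] in
/-- Elements of `N` fixing the root 9. -/
theorem g2_stab_nine {n : GL chevG2.Idx F} (hn : n ∈ chevG2.monomialSubgroup F)
    (h9 : ((goodG2.perm n ⟨9, by decide +kernel⟩ : Fin chevG2.nroots) : ℕ) = 9) :
    (n ∈ chevG2.diagonalSubgroup F ∨ n * goodG2.ng 6 1 ∈ chevG2.diagonalSubgroup F) ∧
      ∀ r, r ∈ goodG2.invSet n → r = 6 := by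
  have hl0 : 0 < chevG2.rank := by decide +kernel
  have hl1 : 1 < chevG2.rank := by decide +kernel
  set q6 := goodG2.perm n ⟨6, by decide +kernel⟩ with hq6
  set q7 := goodG2.perm n ⟨7, by decide +kernel⟩ with hq7
  have e96 := pairing_perm goodG2 hn ⟨6, by decide +kernel⟩ ⟨9, by decide +kernel⟩
  have e97 := pairing_perm goodG2 hn ⟨7, by decide +kernel⟩ ⟨9, by decide +kernel⟩
  have e67 := pairing_perm goodG2 hn ⟨6, by decide +kernel⟩ ⟨7, by decide +kernel⟩
  rw [h9, ← hq6] at e96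
  rw [h9, ← hq7] at e97
  rw [← hq6, ← hq7] at e67
  have e76 := pairing_perm goodG2 hn ⟨7, by decide +kernel⟩ ⟨6, by decide +kernel⟩
  rw [← hq6, ← hq7] at e76
  have l6 := g2_perm_long hn ⟨6, by decide +kernel⟩ (by simp)
  rw [← hq6] at l6
  have c6 : ∀ a : Fin 12, (a : ℕ) ∈ [0, 1, 5, 6, 10, 11] → chevG2.pairing a 9 = chevG2.pairing 6 9 →
      a.val = 5 ∨ a.val = 6 := by decide +kernel
  have c7 : ∀ a b : Fin 12, (a.val = 5 ∨ a.val = 6) → chevG2.pairing b 9 = chevG2.pairing 7 9 →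
      chevG2.pairing a b = chevG2.pairing 6 7 → chevG2.pairing b a = chevG2.pairing 7 6 → (a.val = 6 ∧ b.val = 7) ∨ (a.val = 5 ∧ b.val = 8) := by
    decide +kernel
  have hk := c7 q6 q7 (c6 q6 l6 e96) e97 e67 e76
  have hs : goodG2.ng 6 (1 : F) ∈ chevG2.monomialSubgroup F := goodG2.ng_mem_monomial (by decide +kernel)
  have hpos : ∀ m ∈ chevG2.monomialSubgroup F,
      ((goodG2.perm m ⟨6, by decide +kernel⟩ : Fin chevG2.nroots) : ℕ) = 6 →
      ((goodG2.perm m ⟨7, by decide +kernel⟩ : Fin chevG2.nroots) : ℕ) = 7 →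
      m ∈ chevG2.diagonalSubgroup F := by
    intro m hm h6 h7
    refine goodG2.mem_diagonal_of_pos hm fun i => ?_
    have hi : (i : ℕ) = 0 ∨ (i : ℕ) = 1 := by
      have := i.isLt; simp only [show chevG2.rank = 2 from rfl] at this; omega
    rcases hi with hi | hi
    · have : goodG2.simpleF i = ⟨7, by decide +kernel⟩ := Fin.ext (by
        simp only [Good.simpleF, hi]; decide +kernel)
      rw [this, h7]; decide +kernel
    · have : goodG2.simpleF i = ⟨6, by decide +kernel⟩ := Fin.ext (by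
        simp only [Good.simpleF, hi]; decide +kernel)
      rw [this, h6]; decide +kernel
  have hperm : goodG2.perm (goodG2.ng 6 (1 : F)) = goodG2.sPerm ⟨1, hl1⟩ := goodG2.perm_ng_simple ⟨1, hl1⟩
  have key : (n ∈ chevG2.diagonalSubgroup F) ∨ n * goodG2.ng 6 1 ∈ chevG2.diagonalSubgroup F := by
    rcases hk with ⟨h6, h7⟩ | ⟨h6, h7⟩
    · exact Or.inl (hpos n hn h6 h7)
    · refine Or.inr (hpos _ (mul_mem hn hs) ?_ ?_)
      · rw [goodG2.perm_mul hn hs, hperm, Equiv.Perm.mul_apply]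
        have : goodG2.sPerm ⟨1, hl1⟩ ⟨6, by decide +kernel⟩ = goodG2.negF ⟨6, by decide +kernel⟩ := Fin.ext (by
          rw [Good.sPerm_apply]; simp only [Good.negF]; decide +kernel)
        rw [this, goodG2.perm_negF hn, ← hq6]
        simp only [Good.negF, h6]
        decide +kernel
      · rw [goodG2.perm_mul hn hs, hperm, Equiv.Perm.mul_apply]
        have h8 : goodG2.sPerm ⟨1, hl1⟩ ⟨7, by decide +kernel⟩ = ⟨8, by decide +kernel⟩ := Fin.ext (by
          rw [Good.sPerm_apply]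
          change chevG2.reflectRoot 1 7 = 8
          decide +kernel)
        rw [h8]
        obtain ⟨-, -, L, hL⟩ := goodG2.monRel_perm hn
        have r8 : goodG2.rc 8 = goodG2.rc 6 + goodG2.rc 7 := by
          funext k; revert k; decide +kernel
        have e8 := hL ⟨8, by decide +kernel⟩
        rw [r8, map_add] at e8
        have i6 := hL ⟨6, by decide +kernel⟩
        have i7 := hL ⟨7, by decide +kernel⟩
        rw [← hq6, h6] at i6
        rw [← hq7, h7] at i7
        rw [← i6, ← i7, show goodG2.rc 5 + goodG2.rc 8 = goodG2.rc 7 by funext k; revert k; decide +kernel] at e8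
        exact goodG2.rc_injective (Fin.isLt _) (by decide +kernel) e8
  refine ⟨key, ?_⟩
  rintro r ⟨hr, hp, hneg⟩
  by_contra hr6
  rcases key with hd | hd
  · rw [goodG2.perm_diagonal hd] at hneg
    exact goodG2.not_isNegRoot hp hneg
  · have hperm' : goodG2.perm n = goodG2.sPerm ⟨1, hl1⟩ := by
      have h1 := goodG2.perm_diagonal hd
      rw [goodG2.perm_mul hn hs, hperm, mul_eq_one_iff_eq_inv] at h1
      rw [h1]; exact inv_eq_of_mul_eq_one_right (goodG2.sPerm_mul_self _)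
    rw [hperm', Good.sPerm_apply] at hneg
    exact goodG2.not_isNegRoot (goodG2.isPosRoot_reflect hl1 hp (fun h => hr6 (h.trans (by decide +kernel)))) hneg

/-- The centraliser of `x₉(1)`. -/
theorem g2_centralizer_nine (K : Subgroup (GL chevG2.Idx F))
    (hK : K = chevG2.rootSubgroup F 9 ⊔ chevG2.rootSubgroup F 10 ⊔ chevG2.rootSubgroup F 11 ⊔
      chevG2.rootSubgroup F 6 ⊔ chevG2.rootSubgroup F 5) :
    chevG2.group F ⊓ Subgroup.centralizer {X 9 (1 : F)} = K := by
  subst hK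
  have m9 : ∀ t : F, X 9 t ∈ chevG2.rootSubgroup F 9 ⊔ chevG2.rootSubgroup F 10 ⊔ chevG2.rootSubgroup F 11 ⊔
      chevG2.rootSubgroup F 6 ⊔ chevG2.rootSubgroup F 5 := fun t =>
    Subgroup.mem_sup_left (Subgroup.mem_sup_left (Subgroup.mem_sup_left (Subgroup.mem_sup_left
      (goodG2.xg_mem_rootSubgroup 9 t))))
  have m10 : ∀ t : F, X 10 t ∈ chevG2.rootSubgroup F 9 ⊔ chevG2.rootSubgroup F 10 ⊔ chevG2.rootSubgroup F 11 ⊔
      chevG2.rootSubgroup F 6 ⊔ chevG2.rootSubgroup F 5 := fun t =>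
    Subgroup.mem_sup_left (Subgroup.mem_sup_left (Subgroup.mem_sup_left (Subgroup.mem_sup_right
      (goodG2.xg_mem_rootSubgroup 10 t))))
  have m11 : ∀ t : F, X 11 t ∈ chevG2.rootSubgroup F 9 ⊔ chevG2.rootSubgroup F 10 ⊔ chevG2.rootSubgroup F 11 ⊔
      chevG2.rootSubgroup F 6 ⊔ chevG2.rootSubgroup F 5 := fun t =>
    Subgroup.mem_sup_left (Subgroup.mem_sup_left (Subgroup.mem_sup_right
      (goodG2.xg_mem_rootSubgroup 11 t)))
  have m6 : ∀ t : F, X 6 t ∈ chevG2.rootSubgroup F 9 ⊔ chevG2.rootSubgroup F 10 ⊔ chevG2.rootSubgroup F 11 ⊔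
      chevG2.rootSubgroup F 6 ⊔ chevG2.rootSubgroup F 5 := fun t =>
    Subgroup.mem_sup_left (Subgroup.mem_sup_right (goodG2.xg_mem_rootSubgroup 6 t))
  have m5 : ∀ t : F, X 5 t ∈ chevG2.rootSubgroup F 9 ⊔ chevG2.rootSubgroup F 10 ⊔ chevG2.rootSubgroup F 11 ⊔
      chevG2.rootSubgroup F 6 ⊔ chevG2.rootSubgroup F 5 := fun t =>
    Subgroup.mem_sup_right (goodG2.xg_mem_rootSubgroup 5 t)
  set K := chevG2.rootSubgroup F 9 ⊔ chevG2.rootSubgroup F 10 ⊔ chevG2.rootSubgroup F 11 ⊔
    chevG2.rootSubgroup F 6 ⊔ chevG2.rootSubgroup F 5 with hKdef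
  have hc5 : ∀ t : F, Commute (X 5 t) (X 9 (1 : F)) := fun t =>
    xg_commute goodG2 (by decide +kernel) (by decide +kernel) (by decide) (by decide +kernel)
      (fun c hc => by rw [show chevG2.commTerms 5 9 = [] by decide +kernel] at hc; simp at hc) t 1
  have hKle : K ≤ chevG2.group F ⊓ Subgroup.centralizer {X 9 (1 : F)} := by
    have : ∀ r, (∀ t : F, Commute (X r t) (X 9 (1 : F))) →
        chevG2.rootSubgroup F r ≤ chevG2.group F ⊓ Subgroup.centralizer {X 9 (1 : F)} := fun r hr x hx => by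
      obtain ⟨t, rfl⟩ := goodG2.mem_rootSubgroup.1 hx
      exact ⟨goodG2.xg_mem_group _ _, Subgroup.mem_centralizer_singleton_iff.mpr (hr t)⟩
    refine sup_le (sup_le (sup_le (sup_le (this 9 fun t => ?_) (this 10 fun t => ?_)) (this 11 fun t => ?_))
      (this 6 fun t => g2_commute (by simp) t 1)) (this 5 hc5)
    · change _ = _; rw [goodG2.xg_add, goodG2.xg_add, add_comm]
    · exact (g2_commute (by simp) 1 t).symm
    · exact (g2_commute (by simp) 1 t).symm
  refine le_antisymm ?_ hKle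
  rintro g ⟨hg, hgz⟩
  have hgz' : g * X 9 (1 : F) = X 9 1 * g := Subgroup.mem_centralizer_singleton_iff.mp hgz
  obtain ⟨n, hn, hcell⟩ := goodG2.bruhat hg
  obtain ⟨b, hb, u, hu, rfl⟩ := goodG2.bruhatCell_normal_form hn hcell
  obtain ⟨v, hv, h, hh, rfl⟩ := goodG2.mem_borel.1 hb
  obtain ⟨e, f, hue⟩ := g2_U_conj (goodG2.posSub_le_posUnipotent _ hu) (1 : F) 0 0
  obtain ⟨e', f', hve⟩ := g2_U_conj (inv_mem hv) (1 : F) 0 0
  simp only [goodG2.xg_zero, mul_one, inv_inv] at hue hve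
  obtain ⟨z, rfl⟩ := goodG2.mem_diagonal.1 hh
  set z9 : F := ((goodG2.torusVal z⁻¹ 9 : Fˣ) : F) with hz9
  have hmain : n * (X 9 (1 : F) * X 10 e * X 11 f) * n⁻¹ =
      X 9 (z9 * 1) * X 10 (((goodG2.torusVal z⁻¹ 10 : Fˣ) : F) * e') * X 11 (((goodG2.torusVal z⁻¹ 11 : Fˣ) : F) * f') := by
    rw [← hue, ← goodG2.torus_conj_xg z⁻¹ (by decide +kernel) 1, ← goodG2.torus_conj_xg z⁻¹ (by decide +kernel) e',
      ← goodG2.torus_conj_xg z⁻¹ (by decide +kernel) f', map_inv, inv_inv]
    have e1 : n * (u * X 9 1 * u⁻¹) * n⁻¹ = (goodG2.torus z)⁻¹ * (v⁻¹ * X 9 (1 : F) * v) * goodG2.torus z := by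
      have := congrArg (fun x => (goodG2.torus z)⁻¹ * v⁻¹ * x * u⁻¹ * n⁻¹) hgz'
      simp only [mul_assoc, inv_mul_cancel_left] at this ⊢
      rw [this]; simp [mul_assoc]
    rw [e1, hve]
    group
  obtain ⟨-, h9⟩ := g2_perm_nine hn (by rw [hz9, mul_one]; exact Units.ne_zero _) hmain
  obtain ⟨hn', hinv⟩ := g2_stab_nine hn h9
  have huK : u ∈ K := by
    have : u ∈ chevG2.rootSubgroup F 6 := by
      refine (Subgroup.closure_le _).2 ?_ hu
      rintro x ⟨r, t, ⟨-, hr⟩, rfl⟩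
      rw [hinv r hr]
      exact goodG2.xg_mem_rootSubgroup 6 t
    exact Subgroup.mem_sup_left (Subgroup.mem_sup_right this)
  have hsK : goodG2.ng 6 (1 : F) ∈ K := by
    refine mul_mem (mul_mem (m6 _) ?_) (m6 _)
    rw [show chevG2.neg 6 = 5 by decide +kernel]; exact m5 _
  obtain ⟨d, hd, k, hkK, rfl⟩ : ∃ d ∈ chevG2.diagonalSubgroup F, ∃ k ∈ K, n = d * k := by
    rcases hn' with hd | hd
    · exact ⟨n, hd, 1, one_mem _, (mul_one n).symm⟩
    · exact ⟨_, hd, _, inv_mem hsK, (mul_inv_cancel_right n _).symm⟩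
  have hkuK : k * u ∈ K := mul_mem hkK huK
  have hku : Commute (k * u) (X 9 (1 : F)) :=
    Subgroup.mem_centralizer_singleton_iff.mp (hKle hkuK).2
  obtain ⟨y, hy⟩ := goodG2.mem_diagonal.1 (mul_mem hh hd)
  have hvy : v * goodG2.torus y * X 9 (1 : F) = X 9 1 * (v * goodG2.torus y) := by
    rw [← hy]
    refine mul_right_cancel (b := k * u) ?_
    calc v * (goodG2.torus z * d) * X 9 1 * (k * u)
        = v * (goodG2.torus z * d) * (k * u * X 9 1) := by rw [hku.eq]; group
      _ = v * goodG2.torus z * (d * k) * u * X 9 1 := by group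
      _ = _ := by rw [hgz']; group
  rw [show v * goodG2.torus z * (d * k) * u = v * (goodG2.torus z * d) * (k * u) by group, hy]
  refine mul_mem ?_ hkuK
  clear hgz hgz' hg hcell hb hu hue hve hmain hn hn' hinv h9 huK hsK hku hkuK hkK hy hd hh
  obtain ⟨e2, f2, hv2⟩ := g2_U_conj hv ((goodG2.torusVal y 9 : F) * 1) 0 0
  simp only [goodG2.xg_zero, mul_one] at hv2
  have hv3 : v * X 9 ((goodG2.torusVal y 9 : Fˣ) : F) * v⁻¹ = X 9 1 := by
    have h1 : goodG2.torus y * X 9 (1 : F) = X 9 ((goodG2.torusVal y 9 : Fˣ) : F) * goodG2.torus y := by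
      rw [goodG2.torus_mul_xg y (by decide +kernel) 1, mul_one]
    rw [mul_assoc, h1] at hvy
    rw [mul_inv_eq_iff_eq_mul]
    exact mul_right_cancel (by simpa [mul_assoc] using hvy : v * X 9 _ * goodG2.torus y = X 9 1 * v * goodG2.torus y)
  have hT : goodG2.PosClosed {r | r ∈ [10, 11]} := posClosed_list goodG2 _ (by decide +kernel)
  have hy9 : (goodG2.torusVal y 9 : F) = 1 := by
    rw [hv3, mul_assoc] at hv2
    have hmem : X 9 ((goodG2.torusVal y 9 : F) + 1) ∈ goodG2.posSub (F := F) {r | r ∈ [10, 11]} := by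
      rw [show X 9 ((goodG2.torusVal y 9 : F) + 1) = (X 9 ((goodG2.torusVal y 9 : F)))⁻¹ * X 9 1 by
        rw [g2_inv, goodG2.xg_add], hv2, inv_mul_cancel_left]
      exact mul_mem (goodG2.xg_mem_posSub (g2_pos (by omega) (by omega)) (by simp) _)
        (goodG2.xg_mem_posSub (g2_pos (by omega) (by omega)) (by simp) _)
    exact CharTwo.add_eq_zero.mp (eq_zero_of_xg_mem_posSub goodG2 hT (g2_pos (by omega) (by omega)) (by simp) hmem)
  refine mul_mem ?_ ?_
  · rw [hy9] at hv3
    rw [goodG2.posUnipotent_eq] at hv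
    obtain ⟨t, ⟨-, rfl⟩, -⟩ := goodG2.posSub_normal_form goodG2.posClosed_univ hv
    rw [show chevG2.nroots / 2 = 6 from rfl, goodG2.ordProd_succ (by decide +kernel),
      goodG2.ordProd_succ (by decide +kernel), goodG2.ordProd_succ (by decide +kernel),
      goodG2.ordProd_succ (by decide +kernel), goodG2.ordProd_succ (by decide +kernel),
      goodG2.ordProd_succ (by decide +kernel), goodG2.ordProd_of_le (by decide +kernel), mul_one] at hv3 ⊢
    simp only [Nat.reduceAdd] at hv3 ⊢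
    have hin : Commute (X 7 (t 7) * X 8 (t 8)) (X 9 (1 : F)) := by
      have hrest : X 9 (t 9) * (X 10 (t 10) * X 11 (t 11)) ∈ K := mul_mem (m9 _) (mul_mem (m10 _) (m11 _))
      have c1 : Commute (X 6 (t 6) * (X 7 (t 7) * (X 8 (t 8) * (X 9 (t 9) * (X 10 (t 10) * X 11 (t 11))))))
          (X 9 (1 : F)) := by
        change _ = _
        rw [mul_inv_eq_iff_eq_mul] at hv3
        exact hv3
      have c2 := ((Commute.inv_left (Subgroup.mem_centralizer_singleton_iff.mp (hKle (m6 (t 6))).2)).mul_left c1).mul_left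
        (Commute.inv_left (Subgroup.mem_centralizer_singleton_iff.mp (hKle hrest).2))
      simpa [mul_assoc] using c2
    have h78 : t 7 = 0 ∧ t 8 = 0 := by
      have h1 := conj_eq_self hin
      have h2 : X 7 (t 7) * X 8 (t 8) * X 9 1 * (X 7 (t 7) * X 8 (t 8))⁻¹ =
          X 9 1 * (X 10 (t 7) * X 11 (t 8)) := by
        rw [show X 7 (t 7) * X 8 (t 8) * X 9 1 * (X 7 (t 7) * X 8 (t 8))⁻¹ =
          X 7 (t 7) * (X 8 (t 8) * X 9 1 * (X 8 (t 8))⁻¹) * (X 7 (t 7))⁻¹ by group, g2_conj89, mul_one,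
          show X 7 (t 7) * (X 9 1 * X 11 (t 8)) * (X 7 (t 7))⁻¹ =
            (X 7 (t 7) * X 9 1 * (X 7 (t 7))⁻¹) * (X 7 (t 7) * X 11 (t 8) * (X 7 (t 7))⁻¹) by group,
          g2_conj79, mul_one, conj_eq_self (g2_commute (F := F) (r := 7) (s := 11) (by simp) _ _), mul_assoc]
      rw [h1, left_eq_mul] at h2
      have h10 : X 10 (t 7) = X 11 (t 8) := by rw [eq_inv_of_mul_eq_one_left h2, g2_inv]
      have hA : t 7 = 0 := by
        have hm : X 11 (t 8) ∈ goodG2.posSub (F := F) {r | r ∈ [11]} :=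
          goodG2.xg_mem_posSub (g2_pos (by omega) (by omega)) (by simp) _
        rw [← h10] at hm
        exact eq_zero_of_xg_mem_posSub goodG2 (posClosed_list goodG2 [11] (by decide +kernel))
          (g2_pos (by omega) (by omega)) (by simp) hm
      rw [hA, goodG2.xg_zero] at h10
      exact ⟨hA, (goodG2.xg_eq_one_iff (by decide +kernel) _).1 h10.symm⟩
    rw [h78.1, h78.2, goodG2.xg_zero, goodG2.xg_zero, one_mul, one_mul]
    exact mul_mem (m6 _) (mul_mem (m9 _) (mul_mem (m10 _) (m11 _)))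
  · have hk0 : y ⟨0, by decide +kernel⟩ = 1 := by
      have := hy9
      rw [Good.torusVal, Finset.prod_eq_single (⟨0, by decide +kernel⟩ : Fin chevG2.rank) (fun k _ hk => by
        have hk1 : (k : ℕ) = 1 := by
          have := k.isLt; simp only [show chevG2.rank = 2 from rfl] at this
          have h0 : (k : ℕ) ≠ 0 := fun h => hk (Fin.ext h)
          omega
        rw [← goodG2.cartan_eq (by decide +kernel) k.2, hk1,
          show chevG2.cartan 1 9 = 0 by decide +kernel, zpow_zero]) (by simp),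
        ← goodG2.cartan_eq (by decide +kernel) (Fin.isLt _)] at this
      rw [show chevG2.cartan 0 9 = 1 by decide +kernel, zpow_one] at this
      exact Units.ext this
    rw [← Finset.univ_prod_mulSingle y]
    refine Finset.prod_induction _ (fun w => goodG2.torus w ∈ K)
      (fun a b ha hb => by rw [map_mul]; exact mul_mem ha hb) (by rw [map_one]; exact one_mem _) fun k _ => ?_
    by_cases hk : (k : ℕ) = 0
    · rw [show k = ⟨0, by decide +kernel⟩ from Fin.ext hk, hk0, Pi.mulSingle_one, map_one]; exact one_mem _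
    · have hk1 : (k : ℕ) = 1 := by
        have := k.isLt; simp only [show chevG2.rank = 2 from rfl] at this; omega
      rw [goodG2.torus_mulSingle, hk1, show chevG2.simple 1 = 6 by decide +kernel]
      refine mul_mem ?_ ?_ <;>
        exact mul_mem (mul_mem (m6 _) (by rw [show chevG2.neg 6 = 5 by decide +kernel]; exact m5 _)) (m6 _)

end Cfsg.Agent.H65
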