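import Cfsg.Agent.H65.Chev.G2Cent
import Cfsg.Agent.H65.Chev.Sylow

/-!
Involution classes of type G₂ in characteristic two: reduction inside `U`.
-/

set_option autoImplicit false

open Cfsg.Lie
open Cfsg.Agent.H46

namespace Cfsg.Agent.H65

variable {F : Type*} [Field F] [CharP F 2]

local notation "X" => Good.xg goodG2

/-- `x₈(a) x₉(b) x₁₀(e) x₁₁(f)`. -/
noncomputable def g2S (a b e f : F) : GL chevG2.Idx F := X 8 a * X 9 b * X 10 e * X 11 f

theorem g2S_mul (a b e f a' b' e' f' : F) :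
    g2S a b e f * g2S a' b' e' f' = g2S (a + a') (b + b') (e + e') (f + f' + a' * b) := by
  have c810 : ∀ x y : F, Commute (X 8 x) (X 10 y) := g2_commute (by simp)
  have c811 : ∀ x y : F, Commute (X 8 x) (X 11 y) := g2_commute (by simp)
  have c910 : ∀ x y : F, Commute (X 9 x) (X 10 y) := g2_commute (by simp)
  have c911 : ∀ x y : F, Commute (X 9 x) (X 11 y) := g2_commute (by simp)
  have c1011 : ∀ x y : F, Commute (X 10 x) (X 11 y) := g2_commute (by simp)
  unfold g2S
  calc X 8 a * X 9 b * X 10 e * X 11 f * (X 8 a' * X 9 b' * X 10 e' * X 11 f')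
      = X 8 a * X 9 b * X 8 a' * (X 9 b' * X 10 e * (X 11 f * X 10 e') * X 11 f') := by
        simp only [mul_assoc]
        rw [← (c811 a' f).left_comm, ← (c810 a' e).left_comm, ← (c911 b' f).left_comm, ← (c910 b' e).left_comm]
    _ = X 8 a * (X 8 a' * X 9 b * X 11 (a' * b)) * (X 9 b' * X 10 e * (X 10 e' * X 11 f) * X 11 f') := by
        rw [mul_assoc (X 8 a), g2_comm89, (c1011 e' f).eq]
    _ = X 8 (a + a') * (X 9 (b + b')) * X 10 (e + e') * X 11 (f + f' + a' * b) := by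
        simp only [mul_assoc]
        rw [← (c911 b' (a' * b)).left_comm, ← (c1011 e (a' * b)).left_comm, ← (c1011 e' (a' * b)).left_comm]
        simp only [← mul_assoc, goodG2.xg_add]
        simp only [mul_assoc, goodG2.xg_add]
        ring_nf

theorem g2_conj78 (t c : F) : X 7 t * X 8 c * (X 7 t)⁻¹ = X 8 c * (X 10 (t ^ 2 * c) * X 11 (t * c ^ 2)) := by
  rw [conj_eq_of_comm (g2_comm78 t c) ((g2_commute (by simp) _ _).mul_right (g2_commute (by simp) _ _)),
    mul_inv_rev, g2_inv, g2_inv,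
    (g2_commute (F := F) (r := 10) (s := 11) (by simp) (t ^ 2 * c) (t * c ^ 2)).eq]

theorem g2_conj98 (t c : F) : X 9 t * X 8 c * (X 9 t)⁻¹ = X 8 c * X 11 (c * t) := by
  rw [mul_inv_eq_iff_eq_mul, g2_comm89, mul_assoc,
    (g2_commute (F := F) (r := 9) (s := 11) (by simp) t (c * t)).eq, ← mul_assoc]

omit [CharP F 2] in
theorem conj_mul4 {H : Type*} [Group H] (x a b c d : H) :
    x * (a * b * c * d) * x⁻¹ = (x * a * x⁻¹) * (x * b * x⁻¹) * (x * c * x⁻¹) * (x * d * x⁻¹) := by group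

theorem g2S_conj7 (t a b e f : F) :
    X 7 t * g2S a b e f * (X 7 t)⁻¹ = g2S a b (e + t ^ 2 * a + t * b) (f + t * a ^ 2) := by
  rw [g2S, conj_mul4, g2_conj78, g2_conj79, conj_eq_self (g2_commute (F := F) (r := 7) (s := 10) (by simp) t e),
    conj_eq_self (g2_commute (F := F) (r := 7) (s := 11) (by simp) t f)]
  have h : X 8 a * (X 10 (t ^ 2 * a) * X 11 (t * a ^ 2)) = g2S a 0 (t ^ 2 * a) (t * a ^ 2) := by
    simp [g2S, mul_assoc, goodG2.xg_zero]
  have h' : X 9 b * X 10 (t * b) * X 10 e * X 11 f = g2S 0 b (t * b + e) f := by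
    simp only [g2S, goodG2.xg_zero, one_mul, ← goodG2.xg_add 10, mul_assoc]
  rw [show X 8 a * (X 10 (t ^ 2 * a) * X 11 (t * a ^ 2)) * (X 9 b * X 10 (t * b)) * X 10 e * X 11 f =
    X 8 a * (X 10 (t ^ 2 * a) * X 11 (t * a ^ 2)) * (X 9 b * X 10 (t * b) * X 10 e * X 11 f) by group, h, h', g2S_mul]
  ring_nf

theorem g2S_conj6 (t a b e f : F) :
    X 6 t * g2S a b e f * (X 6 t)⁻¹ = g2S a b e (f + t * e) := by
  rw [g2S, conj_mul4, g2_conj610, conj_eq_self (g2_commute (F := F) (r := 6) (s := 8) (by simp) t a),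
    conj_eq_self (g2_commute (F := F) (r := 6) (s := 9) (by simp) t b),
    conj_eq_self (g2_commute (F := F) (r := 6) (s := 11) (by simp) t f), g2S, mul_assoc _ (X 10 e * X 11 (t * e)),
    mul_assoc (X 10 e), goodG2.xg_add, ← mul_assoc, add_comm (t * e)]

theorem g2_comm67S (t u : F) : X 7 u * X 6 t = X 6 t * X 7 u * g2S (t * u) (t * u ^ 2) (t * u ^ 3) 0 := by
  rw [g2_comm67, g2S, goodG2.xg_zero, mul_one]

omit [CharP F 2] in
/-- Conjugacy to one of the two representatives. -/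
def G2Rep (g : GL chevG2.Idx F) : Prop :=
  ∃ k ∈ chevG2.group F, k * g * k⁻¹ = X 9 1 ∨ k * g * k⁻¹ = X 11 1

omit [CharP F 2] in
theorem G2Rep.of_conj {g g' k : GL chevG2.Idx F} (hk : k ∈ chevG2.group F) (h : G2Rep g') (e : k * g * k⁻¹ = g') :
    G2Rep g := by
  obtain ⟨l, hl, hh⟩ := h
  exact ⟨l * k, mul_mem hl hk, by rw [← e] at hh; simpa [mul_assoc] using hh⟩

theorem g2_ng_conj (i : ℕ) (hi : i < chevG2.rank) (s : ℕ) (hs : s < chevG2.nroots) (t : F) :
    goodG2.ng (chevG2.simple i) 1 * X s t * (goodG2.ng (chevG2.simple i) 1)⁻¹ = X (chevG2.reflectRoot i s) t := by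
  rw [mul_inv_eq_iff_eq_mul, goodG2.ng_simple_mul_xg hi hs]
  rcases goodG2.eta_eq i s with h | h <;> rw [h] <;> simp [CharTwo.neg_eq]

theorem g2Rep_nine (d : F) (hd : d ≠ 0) : G2Rep (X 9 d) := by
  refine ⟨goodG2.hg 7 d⁻¹, goodG2.hg_mem_group _ _, Or.inl ?_⟩
  rw [goodG2.hg_mul_xg (by decide +kernel) (by decide +kernel) (inv_ne_zero hd),
    show chevG2.pairing 7 9 = 1 by decide +kernel, zpow_one, inv_mul_cancel₀ hd, mul_inv_cancel_right]

theorem g2Rep_eleven (d : F) (hd : d ≠ 0) : G2Rep (X 11 d) := by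
  refine ⟨goodG2.hg 6 d⁻¹, goodG2.hg_mem_group _ _, Or.inr ?_⟩
  rw [goodG2.hg_mul_xg (by decide +kernel) (by decide +kernel) (inv_ne_zero hd),
    show chevG2.pairing 6 11 = 1 by decide +kernel, zpow_one, inv_mul_cancel₀ hd, mul_inv_cancel_right]

variable [Finite F]

/-- Every non-trivial `x₈x₉x₁₀x₁₁` of order two is conjugate to a representative. -/
theorem g2S_rep {a b e f : F} (h : g2S a b e f * g2S a b e f = 1) (hne : g2S a b e f ≠ 1) :
    G2Rep (g2S a b e f) := by
  rw [g2S_mul] at h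
  simp only [g2S, CharTwo.add_self_eq_zero, zero_add, goodG2.xg_zero, one_mul] at h
  have hab : a * b = 0 := (goodG2.xg_eq_one_iff (by decide +kernel) _).1 h
  rcases eq_or_ne a 0 with rfl | ha
  · rcases eq_or_ne b 0 with rfl | hb
    · rcases eq_or_ne e 0 with rfl | he
      · have h11 : g2S (0 : F) 0 0 f = X 11 f := by simp [g2S, goodG2.xg_zero]
        rw [h11] at hne ⊢
        exact g2Rep_eleven f fun hf => hne (by rw [hf, goodG2.xg_zero])
      · refine G2Rep.of_conj (goodG2.xg_mem_group 6 (f * e⁻¹)) ?_ (g2S_conj6 _ _ _ _ _)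
        rw [mul_assoc f, inv_mul_cancel₀ he, mul_one, CharTwo.add_self_eq_zero]
        refine G2Rep.of_conj (goodG2.ng_mem_group (chevG2.simple 1) 1) (g2Rep_eleven e he) ?_
        rw [show g2S (0 : F) 0 e 0 = X 10 e by simp [g2S, goodG2.xg_zero],
          g2_ng_conj 1 (by decide +kernel) 10 (by decide +kernel), show chevG2.reflectRoot 1 10 = 11 by decide +kernel]
    · refine G2Rep.of_conj (goodG2.xg_mem_group 7 (e * b⁻¹)) ?_ (g2S_conj7 _ _ _ _ _)
      simp only [mul_zero, add_zero, ne_eq, OfNat.ofNat_ne_zero, not_false_eq_true, zero_pow]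
      rw [mul_assoc e, inv_mul_cancel₀ hb, mul_one, CharTwo.add_self_eq_zero]
      refine G2Rep.of_conj (goodG2.xg_mem_group 8 (f * b⁻¹)) (g2Rep_nine b hb) ?_
      have e9 : g2S (0 : F) b 0 f = X 9 b * X 11 f := by simp [g2S, goodG2.xg_zero]
      rw [e9, show X 8 (f * b⁻¹) * (X 9 b * X 11 f) * (X 8 (f * b⁻¹))⁻¹ =
        (X 8 (f * b⁻¹) * X 9 b * (X 8 (f * b⁻¹))⁻¹) * (X 8 (f * b⁻¹) * X 11 f * (X 8 (f * b⁻¹))⁻¹) by group,
        g2_conj89, conj_eq_self (g2_commute (F := F) (r := 8) (s := 11) (by simp) _ _), mul_assoc, goodG2.xg_add,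
        mul_assoc f, inv_mul_cancel₀ hb, mul_one, CharTwo.add_self_eq_zero, goodG2.xg_zero, mul_one]
  · obtain rfl : b = 0 := (mul_eq_zero.1 hab).resolve_left ha
    obtain ⟨t, ht⟩ := FiniteField.isSquare_of_char_two (ringChar.eq F 2) (e * a⁻¹)
    refine G2Rep.of_conj (goodG2.xg_mem_group 7 t) ?_ (g2S_conj7 _ _ _ _ _)
    rw [pow_two t, ← ht, mul_assoc e, inv_mul_cancel₀ ha, mul_one, CharTwo.add_self_eq_zero, mul_zero, zero_add]
    set f' := f + t * a ^ 2
    refine G2Rep.of_conj (goodG2.xg_mem_group 9 (f' * a⁻¹)) (g' := X 8 a) ?_ ?_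
    · refine G2Rep.of_conj (goodG2.ng_mem_group (chevG2.simple 0) 1) (g2Rep_nine a ha) ?_
      rw [g2_ng_conj 0 (by decide +kernel) 8 (by decide +kernel), show chevG2.reflectRoot 0 8 = 9 by decide +kernel]
    · rw [show g2S a 0 0 f' = X 8 a * X 11 f' by simp [g2S, goodG2.xg_zero],
        show X 9 (f' * a⁻¹) * (X 8 a * X 11 f') * (X 9 (f' * a⁻¹))⁻¹ =
        (X 9 (f' * a⁻¹) * X 8 a * (X 9 (f' * a⁻¹))⁻¹) * (X 9 (f' * a⁻¹) * X 11 f' * (X 9 (f' * a⁻¹))⁻¹) by group,
        g2_conj98, conj_eq_self (g2_commute (F := F) (r := 9) (s := 11) (by simp) _ _), mul_assoc, goodG2.xg_add,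
        ← mul_assoc a, mul_comm a f', mul_assoc f', mul_inv_cancel₀ ha, mul_one, CharTwo.add_self_eq_zero,
        goodG2.xg_zero, mul_one]

theorem g2_U_form {u : GL chevG2.Idx F} (hu : u ∈ chevG2.posUnipotent F) :
    ∃ A B a b e f : F, u = X 6 A * X 7 B * g2S a b e f := by
  rw [goodG2.posUnipotent_eq] at hu
  obtain ⟨t, ⟨-, rfl⟩, -⟩ := goodG2.posSub_normal_form goodG2.posClosed_univ hu
  refine ⟨t 6, t 7, t 8, t 9, t 10, t 11, ?_⟩
  rw [show chevG2.nroots / 2 = 6 from rfl, goodG2.ordProd_succ (by decide +kernel),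
    goodG2.ordProd_succ (by decide +kernel), goodG2.ordProd_succ (by decide +kernel),
    goodG2.ordProd_succ (by decide +kernel), goodG2.ordProd_succ (by decide +kernel),
    goodG2.ordProd_succ (by decide +kernel), goodG2.ordProd_of_le (by decide +kernel), mul_one]
  simp [g2S, mul_assoc]

theorem g2_square_mod {A B a b e f : F}
    (h : X 6 A * X 7 B * g2S a b e f * (X 6 A * X 7 B * g2S a b e f) = 1) : A * B = 0 := by
  let S : Set ℕ := {r | r ∈ [9, 10, 11]}
  let M := goodG2.posSub (F := F) S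
  have hS : goodG2.PosClosed S := posClosed_list goodG2 _ (by decide +kernel)
  have key : ∀ r, 6 ≤ r → r < 12 → ∀ t : F, X r t ∈ Subgroup.normalizer (M : Set (GL chevG2.Idx F)) := by
    intro r h1 h2 t
    refine goodG2.xg_mem_normalizer_posSub (g2_pos h1 h2) ?_ t
    intro s _ hs _ c hc
    have hd : ∀ r ∈ [6, 7, 8, 9, 10, 11], ∀ s ∈ [9, 10, 11], ∀ c ∈ chevG2.commTerms r s, c.1 ∈ [9, 10, 11] := by
      decide +kernel
    exact hd r (by simp; omega) s hs c hc
  let N := Subgroup.normalizer (M : Set (GL chevG2.Idx F))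
  let M' : Subgroup N := M.subgroupOf N
  have : M'.Normal := Subgroup.normal_in_normalizer
  let φ : ↥N →* ↥N ⧸ M' := QuotientGroup.mk' M'
  let x : (r : ℕ) → 6 ≤ r → r < 12 → F → ↥N := fun r h1 h2 t => ⟨X r t, key r h1 h2 t⟩
  set p6 := φ (x 6 (by omega) (by omega) A) with hp6
  set p7 := φ (x 7 (by omega) (by omega) B) with hp7
  set p8 := φ (x 8 (by omega) (by omega) a) with hp8
  set q := φ (x 8 (by omega) (by omega) (A * B)) with hq
  have hM : ∀ r, ∀ h1 : 6 ≤ r, ∀ h2 : r < 12, r ∈ S → ∀ t : F, φ (x r h1 h2 t) = 1 := fun r h1 h2 hr t =>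
    (QuotientGroup.eq_one_iff _).2 (Subgroup.mem_subgroupOf.2 (goodG2.xg_mem_posSub (g2_pos h1 h2) hr t))
  have hsq : ∀ r, ∀ h1 : 6 ≤ r, ∀ h2 : r < 12, ∀ t : F, φ (x r h1 h2 t) * φ (x r h1 h2 t) = 1 := fun r h1 h2 t => by
    rw [← map_mul, show x r h1 h2 t * x r h1 h2 t = 1 from Subtype.ext (by
      change X r t * X r t = 1
      rw [goodG2.xg_add, CharTwo.add_self_eq_zero, goodG2.xg_zero]), map_one]
  have h68 : ∀ s : F, Commute p6 (φ (x 8 (by omega) (by omega) s)) := fun s =>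
    Commute.map (show Commute (x 6 (by omega) (by omega) A) (x 8 (by omega) (by omega) s) from Subtype.ext (g2_commute (by simp) A s).eq) φ
  have h78 : ∀ s : F, Commute p7 (φ (x 8 (by omega) (by omega) s)) := fun s => by
    have e1 := congrArg φ (show x 8 (by omega) (by omega) s * x 7 (by omega) (by omega) B =
      x 7 (by omega) (by omega) B * x 8 (by omega) (by omega) s *
        (x 10 (by omega) (by omega) (B ^ 2 * s) * x 11 (by omega) (by omega) (B * s ^ 2)) from
      Subtype.ext (g2_comm78 B s))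
    simp only [map_mul] at e1
    rw [hM 10 (by omega) (by omega) (by simp [S]), hM 11 (by omega) (by omega) (by simp [S]), mul_one, mul_one] at e1
    exact e1.symm
  have h76 : p7 * p6 = p6 * p7 * q := by
    have e1 := congrArg φ (show x 7 (by omega) (by omega) B * x 6 (by omega) (by omega) A =
      x 6 (by omega) (by omega) A * x 7 (by omega) (by omega) B *
        (x 8 (by omega) (by omega) (A * B) * x 9 (by omega) (by omega) (A * B ^ 2) *
          x 10 (by omega) (by omega) (A * B ^ 3)) from Subtype.ext (g2_comm67 A B))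
    simp only [map_mul] at e1
    rw [hM 9 (by omega) (by omega) (by simp [S]), hM 10 (by omega) (by omega) (by simp [S]), mul_one, mul_one] at e1
    exact e1
  have hu : p6 * p7 * p8 * (p6 * p7 * p8) = 1 := by
    have e1 := congrArg φ (show x 6 (by omega) (by omega) A * x 7 (by omega) (by omega) B *
        (x 8 (by omega) (by omega) a * x 9 (by omega) (by omega) b * x 10 (by omega) (by omega) e *
          x 11 (by omega) (by omega) f) * (x 6 (by omega) (by omega) A * x 7 (by omega) (by omega) B *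
        (x 8 (by omega) (by omega) a * x 9 (by omega) (by omega) b * x 10 (by omega) (by omega) e *
          x 11 (by omega) (by omega) f)) = 1 from Subtype.ext h)
    simp only [map_mul, map_one] at e1
    rw [hM 9 (by omega) (by omega) (by simp [S]), hM 10 (by omega) (by omega) (by simp [S]), hM 11 (by omega) (by omega) (by simp [S])] at e1
    simpa only [mul_one] using e1
  have h7q : p7 * q = q * p7 := (h78 (A * B)).eq
  have s6 : p6 * p6 = 1 := hsq 6 (by omega) (by omega) A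
  have s7 : p7 * p7 = 1 := hsq 7 (by omega) (by omega) B
  have s8 : p8 * p8 = 1 := hsq 8 (by omega) (by omega) a
  have h8 : Commute p8 (p6 * p7) := ((h68 a).symm).mul_right (h78 a).symm
  have hq1 : q = 1 := by
    calc q = p6 * p6 * (p7 * p7) * q := by rw [s6, s7, one_mul, one_mul]
      _ = p6 * (p6 * p7 * q) * p7 := by simp only [mul_assoc]; rw [h7q]
      _ = p6 * p7 * (p6 * p7) := by rw [← h76]; simp only [mul_assoc]
      _ = p6 * p7 * p8 * (p6 * p7 * p8) := by
        rw [mul_assoc (p6 * p7) p8, ← mul_assoc p8, h8.eq, mul_assoc (p6 * p7) p8, s8, mul_one]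
      _ = 1 := hu
  have hmem : X 8 (A * B) ∈ M := Subgroup.mem_subgroupOf.1 ((QuotientGroup.eq_one_iff _).1 hq1)
  exact eq_zero_of_xg_mem_posSub goodG2 hS (g2_pos (by omega) (by omega)) (by simp [S]) hmem

omit [Finite F] in
theorem g2S_inv (a b e f : F) : (g2S a b e f)⁻¹ = g2S a b e (f + a * b) := by
  refine inv_eq_of_mul_eq_one_right ?_
  rw [g2S_mul]
  simp only [g2S, CharTwo.add_self_eq_zero, goodG2.xg_zero, one_mul]
  rw [show f + (f + a * b) + a * b = 0 by
    linear_combination (f + a * b) * CharTwo.two_eq_zero (R := F), goodG2.xg_zero]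

/-- Every involution of `U` is conjugate to a representative. -/
theorem g2_U_rep {u : GL chevG2.Idx F} (hu : u ∈ chevG2.posUnipotent F) (h2 : u * u = 1) (h1 : u ≠ 1) :
    G2Rep u := by
  have sq : ∀ k : GL chevG2.Idx F, (k * u * k⁻¹) * (k * u * k⁻¹) = 1 ∧ k * u * k⁻¹ ≠ 1 := fun k =>
    ⟨by rw [show k * u * k⁻¹ * (k * u * k⁻¹) = k * (u * u) * k⁻¹ by group, h2, mul_one, mul_inv_cancel],
      fun h => h1 (conj_eq_one_iff.1 h)⟩
  obtain ⟨A, B, a, b, e, f, rfl⟩ := g2_U_form hu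
  have hAB := g2_square_mod h2
  rcases eq_or_ne A 0 with rfl | hA
  · rcases eq_or_ne B 0 with rfl | hB
    · simp only [goodG2.xg_zero, one_mul] at h2 h1 ⊢
      exact g2S_rep h2 h1
    · simp only [goodG2.xg_zero (F := F) 6, one_mul] at h2 h1 sq ⊢
      obtain ⟨t, ht⟩ : ∃ t, t * B = a := ⟨a * B⁻¹, by rw [mul_assoc, inv_mul_cancel₀ hB, mul_one]⟩
      obtain ⟨b', e', f', hc⟩ : ∃ b' e' f', X 6 t * (X 7 B * g2S a b e f) * (X 6 t)⁻¹ = X 7 B * g2S 0 b' e' f' := by
        have h67 : X 6 t * X 7 B * (X 6 t)⁻¹ =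
            X 7 B * (X 6 t * (g2S (t * B) (t * B ^ 2) (t * B ^ 3) 0)⁻¹ * (X 6 t)⁻¹) := by
          simp only [← mul_assoc]
          rw [g2_comm67S, mul_inv_cancel_right]
        rw [show X 6 t * (X 7 B * g2S a b e f) * (X 6 t)⁻¹ =
          (X 6 t * X 7 B * (X 6 t)⁻¹) * (X 6 t * g2S a b e f * (X 6 t)⁻¹) by group, h67, g2S_inv, g2S_conj6,
          g2S_conj6, mul_assoc (X 7 B), g2S_mul, ht, CharTwo.add_self_eq_zero]
        exact ⟨_, _, _, rfl⟩
      refine G2Rep.of_conj (goodG2.xg_mem_group 6 t) ?_ hc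
      obtain ⟨hsq', hne'⟩ := sq (X 6 t)
      rw [hc] at hsq' hne'
      have hb0 : b' = 0 := by
        have h710 : Commute (X 7 B) (X 10 e' * X 11 f') :=
          (g2_commute (by simp) _ _).mul_right (g2_commute (by simp) _ _)
        have h910 : Commute (X 9 b') (X 10 e' * X 11 f') :=
          (g2_commute (by simp) _ _).mul_right (g2_commute (by simp) _ _)
        have hr : X 10 e' * X 11 f' * (X 10 e' * X 11 f') = 1 := by
          rw [(g2_commute (F := F) (r := 10) (s := 11) (by simp) e' f').symm.mul_mul_mul_comm, goodG2.xg_add,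
            goodG2.xg_add, CharTwo.add_self_eq_zero, CharTwo.add_self_eq_zero, goodG2.xg_zero, goodG2.xg_zero, one_mul]
        have e9 : X 7 B * g2S 0 b' e' f' = X 7 B * X 9 b' * (X 10 e' * X 11 f') := by
          simp [g2S, goodG2.xg_zero, mul_assoc]
        rw [e9, (h710.mul_left h910).symm.mul_mul_mul_comm, hr, mul_one,
          show X 7 B * X 9 b' * (X 7 B * X 9 b') = X 7 B * (X 9 b' * X 7 B) * X 9 b' by group, g2_comm79] at hsq'
        have hq : X 10 (B * b') = 1 := by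
          rw [← hsq']
          simp only [← mul_assoc]
          rw [goodG2.xg_add, CharTwo.add_self_eq_zero, goodG2.xg_zero, one_mul, mul_assoc,
            ← (g2_commute (F := F) (r := 9) (s := 10) (by simp) b' (B * b')).eq, ← mul_assoc, goodG2.xg_add,
            CharTwo.add_self_eq_zero, goodG2.xg_zero, one_mul]
        exact (mul_eq_zero.1 ((goodG2.xg_eq_one_iff (by decide +kernel) _).1 hq)).resolve_left hB
      subst hb0
      set s := goodG2.ng (chevG2.simple 1) (1 : F)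
      have hs : s * (X 7 B * g2S 0 0 e' f') * s⁻¹ = g2S B 0 f' e' := by
        simp only [g2S, goodG2.xg_zero, one_mul, mul_one]
        rw [show s * (X 7 B * (X 10 e' * X 11 f')) * s⁻¹ =
          (s * X 7 B * s⁻¹) * (s * X 10 e' * s⁻¹) * (s * X 11 f' * s⁻¹) by group,
          g2_ng_conj 1 (by decide +kernel) 7 (by decide +kernel), g2_ng_conj 1 (by decide +kernel) 10 (by decide +kernel),
          g2_ng_conj 1 (by decide +kernel) 11 (by decide +kernel), show chevG2.reflectRoot 1 7 = 8 by decide +kernel,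
          show chevG2.reflectRoot 1 10 = 11 by decide +kernel, show chevG2.reflectRoot 1 11 = 10 by decide +kernel,
          mul_assoc, ← (g2_commute (F := F) (r := 10) (s := 11) (by simp) f' e').eq, ← mul_assoc]
      refine G2Rep.of_conj (goodG2.ng_mem_group _ 1) (g2S_rep ?_ ?_) hs
      · rw [← hs, show s * (X 7 B * g2S 0 0 e' f') * s⁻¹ * (s * (X 7 B * g2S 0 0 e' f') * s⁻¹) =
          s * (X 7 B * g2S 0 0 e' f' * (X 7 B * g2S 0 0 e' f')) * s⁻¹ by group, hsq', mul_one, mul_inv_cancel]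
      · rw [← hs]; exact fun h => hne' (conj_eq_one_iff.1 h)
  · obtain rfl : B = 0 := (mul_eq_zero.1 hAB).resolve_left hA
    simp only [goodG2.xg_zero (F := F) 7, mul_one] at h2 h1 sq ⊢
    obtain ⟨t, ht⟩ : ∃ t, A * t = a := ⟨A⁻¹ * a, by rw [← mul_assoc, mul_inv_cancel₀ hA, one_mul]⟩
    obtain ⟨b', e', f', hc⟩ : ∃ b' e' f', X 7 t * (X 6 A * g2S a b e f) * (X 7 t)⁻¹ = X 6 A * g2S 0 b' e' f' := by
      rw [show X 7 t * (X 6 A * g2S a b e f) * (X 7 t)⁻¹ =
        (X 7 t * X 6 A) * g2S a b e f * (X 7 t)⁻¹ by group, g2_comm67S,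
        show X 6 A * X 7 t * g2S (A * t) (A * t ^ 2) (A * t ^ 3) 0 * g2S a b e f * (X 7 t)⁻¹ =
          X 6 A * (X 7 t * (g2S (A * t) (A * t ^ 2) (A * t ^ 3) 0 * g2S a b e f) * (X 7 t)⁻¹) by group,
        g2S_mul, g2S_conj7, ht, CharTwo.add_self_eq_zero]
      exact ⟨_, _, _, rfl⟩
    refine G2Rep.of_conj (goodG2.xg_mem_group 7 t) ?_ hc
    obtain ⟨hsq', hne'⟩ := sq (X 7 t)
    rw [hc] at hsq' hne'
    have he0 : e' = 0 := by
      rw [show X 6 A * g2S 0 b' e' f' * (X 6 A * g2S 0 b' e' f') =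
        X 6 A * g2S 0 b' e' f' * (X 6 A)⁻¹ * (X 6 A * X 6 A) * g2S 0 b' e' f' by group, g2S_conj6, goodG2.xg_add,
        CharTwo.add_self_eq_zero, goodG2.xg_zero, mul_one, g2S_mul] at hsq'
      simp only [g2S, CharTwo.add_self_eq_zero, goodG2.xg_zero, one_mul, zero_mul, add_zero,
        goodG2.xg_eq_one_iff (show 11 < chevG2.nroots by decide +kernel)] at hsq'
      have : A * e' = 0 := by linear_combination hsq' - f' * CharTwo.two_eq_zero (R := F)
      exact (mul_eq_zero.1 this).resolve_left hA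
    subst he0
    set s := goodG2.ng (chevG2.simple 0) (1 : F)
    have hs : s * (X 6 A * g2S 0 b' 0 f') * s⁻¹ = g2S b' 0 A f' := by
      simp only [g2S, goodG2.xg_zero, one_mul, mul_one]
      rw [show s * (X 6 A * (X 9 b' * X 11 f')) * s⁻¹ =
        (s * X 6 A * s⁻¹) * (s * X 9 b' * s⁻¹) * (s * X 11 f' * s⁻¹) by group,
        g2_ng_conj 0 (by decide +kernel) 6 (by decide +kernel), g2_ng_conj 0 (by decide +kernel) 9 (by decide +kernel),
        g2_ng_conj 0 (by decide +kernel) 11 (by decide +kernel), show chevG2.reflectRoot 0 6 = 10 by decide +kernel,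
        show chevG2.reflectRoot 0 9 = 8 by decide +kernel, show chevG2.reflectRoot 0 11 = 11 by decide +kernel,
        ← (g2_commute (F := F) (r := 8) (s := 10) (by simp) b' A).eq]
    refine G2Rep.of_conj (goodG2.ng_mem_group _ 1) (g2S_rep ?_ ?_) hs
    · rw [← hs, show s * (X 6 A * g2S 0 b' 0 f') * s⁻¹ * (s * (X 6 A * g2S 0 b' 0 f') * s⁻¹) =
        s * (X 6 A * g2S 0 b' 0 f' * (X 6 A * g2S 0 b' 0 f')) * s⁻¹ by group, hsq', mul_one, mul_inv_cancel]
    · rw [← hs]; exact fun h => hne' (conj_eq_one_iff.1 h)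

omit [Finite F] in
/-- The two representatives are not conjugate. -/
theorem g2_nine_ne_eleven {h : GL chevG2.Idx F} (hh : h ∈ chevG2.group F) : h * X 11 1 * h⁻¹ ≠ X 9 1 := by
  intro he
  obtain ⟨n, hn, hc⟩ := goodG2.bruhat hh
  obtain ⟨b, hb, u, hu, rfl⟩ := goodG2.bruhatCell_normal_form hn hc
  obtain ⟨v, hv, d, hd, rfl⟩ := goodG2.mem_borel.1 hb
  obtain ⟨z, rfl⟩ := goodG2.mem_diagonal.1 hd
  have hu11 : ∀ w ∈ chevG2.posUnipotent F, Commute w (X 11 (1 : F)) := by
    intro w hw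
    induction hw using Subgroup.closure_induction with
    | mem x hx =>
      obtain ⟨r, t, hr, hx⟩ := hx
      rw [goodG2.eq_xg hx]
      rcases g2_pos_cases hr with rfl | rfl | rfl | rfl | rfl | rfl
      iterate 5 exact g2_commute (by simp) _ _
      change _ = _; rw [goodG2.xg_add, goodG2.xg_add, add_comm]
    | one => exact Commute.one_left _
    | mul a b _ _ ha hb => exact ha.mul_left hb
    | inv a _ ha => exact ha.inv_left
  obtain ⟨e', f', hve⟩ := g2_U_conj (inv_mem hv) (1 : F) 0 0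
  simp only [goodG2.xg_zero, mul_one, inv_inv] at hve
  have hmain : n * (X 9 (0 : F) * X 10 0 * X 11 1) * n⁻¹ =
      X 9 ((goodG2.torusVal z⁻¹ 9 : F) * 1) * X 10 ((goodG2.torusVal z⁻¹ 10 : F) * e') *
        X 11 ((goodG2.torusVal z⁻¹ 11 : F) * f') := by
    rw [← goodG2.torus_conj_xg z⁻¹ (by decide +kernel) 1, ← goodG2.torus_conj_xg z⁻¹ (by decide +kernel) e',
      ← goodG2.torus_conj_xg z⁻¹ (by decide +kernel) f', map_inv, inv_inv]
    have e1 : n * X 11 1 * n⁻¹ = (goodG2.torus z)⁻¹ * (v⁻¹ * X 9 (1 : F) * v) * goodG2.torus z := by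
      rw [← he, show (goodG2.torus z)⁻¹ * (v⁻¹ * (v * goodG2.torus z * n * u * X 11 1 *
        (v * goodG2.torus z * n * u)⁻¹) * v) * goodG2.torus z = n * (u * X 11 1 * u⁻¹) * n⁻¹ by group,
        conj_eq_self (hu11 u (goodG2.posSub_le_posUnipotent _ hu))]
    rw [goodG2.xg_zero, goodG2.xg_zero, one_mul, one_mul, e1, hve]
    group
  exact (g2_perm_nine hn (mul_ne_zero (Units.ne_zero _) one_ne_zero) hmain).1 rfl

end Cfsg.Agent.H65
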