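import Cfsg.Agent.H65.Chev.Commuting

/-!
Centralisers of a product of two orthogonal root elements.
-/

set_option autoImplicit false

open Cfsg.Lie
open Cfsg.Agent.H46

namespace Cfsg.Agent.H65

variable {D : ChevalleyDatum} {F : Type*} [Field F]

/-- Data for the centraliser of `x_a(1) x_b(1)`: `M` lists the other roots met by `U`-conjugates, `J` the simple
reflections fixing both roots, `R` the positive roots orthogonal to the weight. -/
structure PairData (D : ChevalleyDatum) (F : Type*) [Field F] where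
  a : Fin D.nroots
  b : Fin D.nroots
  M : List (Fin D.nroots)
  J : List (Fin D.rank)
  R : List ℕ
  wa : ℤ
  wb : ℤ
  pos : ∀ r ∈ a :: b :: M, D.IsPosRoot r
  nodup : (a :: b :: M).Nodup
  neg : ∀ r ∈ a :: b :: M, ∀ s ∈ a :: b :: M, (s : ℕ) ≠ D.neg r
  closed : ∀ r ∈ (a :: b :: M).map Fin.val, ∀ s ∈ (a :: b :: M).map Fin.val, ∀ c ∈ D.commTerms r s,
    c.1 ∈ (a :: b :: M).map Fin.val
  closedM : ∀ r ∈ M.map Fin.val, ∀ s ∈ M.map Fin.val, ∀ c ∈ D.commTerms r s, c.1 ∈ M.map Fin.val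
  comm : ∀ r ∈ a :: b :: M, ∀ s ∈ a :: b :: M, s ≠ r → ∀ c ∈ D.commTerms r s, (c.2.1 : F) = 0
  stable : ∀ r, D.IsPosRoot r → ∀ s ∈ a :: b :: M, (s : ℕ) ≠ r → ∀ c ∈ D.commTerms r s,
    (c.2.1 : F) = 0 ∨ c.1 ∈ M.map Fin.val
  orth : ∀ p ∈ (a :: b :: M).map Fin.val, ∀ q ∈ (a :: b :: M).map Fin.val, p ≠ q →
    D.pairing p q = D.pairing a b → (p = a ∧ q = b) ∨ (p = b ∧ q = a)
  witness : ∃ e : Fin D.nroots, e ≠ a ∧ D.pairing a e = 2
  unique : ∀ s < D.nroots, D.pairing b s = 2 → s = b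
  dom : ∀ r, D.IsNegRoot r → wa * D.pairing r a + wb * D.pairing r b ≤ 0
  low : ∀ r, D.IsPosRoot r → wa * D.pairing r a + wb * D.pairing r b ≤ 0 → r ∈ R
  high : ∀ i : Fin D.rank, i ∉ J → 0 < wa * D.cartan i a + wb * D.cartan i b
  fix : ∀ i ∈ J, D.cartan i a = 0 ∧ D.cartan i b = 0

variable (G : Good D) (P : PairData D F)

theorem PairData.commute (r s : Fin D.nroots) (hr : r ∈ P.a :: P.b :: P.M) (hs : s ∈ P.a :: P.b :: P.M) (t u : F) :
    Commute (G.xg r t) (G.xg s u) := by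
  by_cases h : s = r
  · subst h; change _ = _; rw [G.xg_add, G.xg_add, add_comm]
  · exact xg_commute G r.2 s.2 (fun e => h (Fin.ext e)) (P.neg r hr s hs) (P.comm r hr s hs h) t u

theorem PairData.M_commute (r : Fin D.nroots) (hr : r ∈ P.a :: P.b :: P.M) (t : F) {m : GL D.Idx F}
    (hm : m ∈ G.posSub (F := F) {s | s ∈ P.M.map Fin.val}) : Commute (G.xg r t) m := by
  induction hm using Subgroup.closure_induction with
  | mem x hx =>
    obtain ⟨s, v, ⟨-, hs⟩, rfl⟩ := hx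
    obtain ⟨s', hs', rfl⟩ := List.mem_map.1 hs
    exact P.commute G r s' hr (List.mem_cons_of_mem _ (List.mem_cons_of_mem _ hs')) t v
  | one => exact Commute.one_right _
  | mul x y _ _ hx hy => exact hx.mul_right hy
  | inv x _ hx => exact hx.inv_right

/-- `U` preserves the coset `x_a(c) x_b(d) M`. -/
theorem PairData.U_conj {u : GL D.Idx F} (hu : u ∈ D.posUnipotent F) :
    ∀ c d : F, ∀ m ∈ G.posSub (F := F) {s | s ∈ P.M.map Fin.val},
      ∃ m' ∈ G.posSub (F := F) {s | s ∈ P.M.map Fin.val},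
        u * (G.xg P.a c * G.xg P.b d * m) * u⁻¹ = G.xg P.a c * G.xg P.b d * m' := by
  set S : Set ℕ := {s | s ∈ P.M.map Fin.val}
  have gen : ∀ r, D.IsPosRoot r → ∀ t : F, ∀ c d : F, ∀ m ∈ G.posSub (F := F) S,
      ∃ m' ∈ G.posSub (F := F) S,
        G.xg r t * (G.xg P.a c * G.xg P.b d * m) * (G.xg r t)⁻¹ = G.xg P.a c * G.xg P.b d * m' := by
    intro r hr t c d m hm
    have step : ∀ s ∈ P.a :: P.b :: P.M, ∀ v : F, ∃ w ∈ G.posSub (F := F) S,
        G.xg r t * G.xg (s : ℕ) v * (G.xg r t)⁻¹ = G.xg s v * w := fun s hs v =>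
      conj_xg_mod G hr (P.pos s hs) (fun hsr => P.stable r hr s hs hsr) t v
    have hM : G.xg r t * m * (G.xg r t)⁻¹ ∈ G.posSub (F := F) S := by
      induction hm using Subgroup.closure_induction with
      | mem x hx =>
        obtain ⟨s, v, ⟨hs, hs'⟩, rfl⟩ := hx
        obtain ⟨s', hs'', rfl⟩ := List.mem_map.1 hs'
        obtain ⟨w, hw, e⟩ := step s' (List.mem_cons_of_mem _ (List.mem_cons_of_mem _ hs'')) v
        rw [e]
        exact mul_mem (G.xg_mem_posSub hs hs' v) hw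
      | one => simp
      | mul x y _ _ hx hy =>
        rw [show G.xg r t * (x * y) * (G.xg r t)⁻¹ =
          (G.xg r t * x * (G.xg r t)⁻¹) * (G.xg r t * y * (G.xg r t)⁻¹) by group]
        exact mul_mem hx hy
      | inv x _ hx =>
        rw [show G.xg r t * x⁻¹ * (G.xg r t)⁻¹ = (G.xg r t * x * (G.xg r t)⁻¹)⁻¹ by group]
        exact inv_mem hx
    obtain ⟨w1, hw1, e1⟩ := step P.a List.mem_cons_self c
    obtain ⟨w2, hw2, e2⟩ := step P.b (List.mem_cons_of_mem _ List.mem_cons_self) d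
    refine ⟨w1 * w2 * (G.xg r t * m * (G.xg r t)⁻¹), mul_mem (mul_mem hw1 hw2) hM, ?_⟩
    rw [show G.xg r t * (G.xg P.a c * G.xg P.b d * m) * (G.xg r t)⁻¹ =
      (G.xg r t * G.xg P.a c * (G.xg r t)⁻¹) * (G.xg r t * G.xg P.b d * (G.xg r t)⁻¹) *
        (G.xg r t * m * (G.xg r t)⁻¹) by group, e1, e2]
    have hc : Commute (G.xg P.b d) w1 := P.M_commute G P.b (List.mem_cons_of_mem _ List.mem_cons_self) d hw1
    rw [show G.xg P.a c * w1 * (G.xg P.b d * w2) = G.xg P.a c * (w1 * G.xg P.b d) * w2 by group, ← hc.eq]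
    group
  rw [ChevalleyDatum.posUnipotent] at hu
  induction hu using Subgroup.closure_induction'' with
  | mem x hx => obtain ⟨r, t, hr, hx⟩ := hx; rw [G.eq_xg hx]; exact gen r hr t
  | inv_mem x hx => obtain ⟨r, t, hr, hx⟩ := hx; rw [G.eq_xg hx, G.xg_inv]; exact gen r hr (-t)
  | one => exact fun c d m hm => ⟨m, hm, by simp⟩
  | mul x y _ _ ihx ihy =>
    intro c d m hm
    obtain ⟨m1, hm1, h1⟩ := ihy c d m hm
    obtain ⟨m2, hm2, h2⟩ := ihx c d m1 hm1
    exact ⟨m2, hm2, by rw [← h2, ← h1]; group⟩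

theorem PairData.M_closed : G.PosClosed {s | s ∈ (P.a :: P.b :: P.M).map Fin.val} :=
  fun r s _ _ hr hs _ c hc => P.closed r hr s hs c hc

/-- An element of `N` matching two such cosets fixes both roots. -/
theorem PairData.perm_fix {n : GL D.Idx F} (hn : n ∈ D.monomialSubgroup F) {c d c' d' : F} (hc : c ≠ 0)
    (hd : d ≠ 0) {m m' : GL D.Idx F} (hm : m ∈ G.posSub (F := F) {s | s ∈ P.M.map Fin.val})
    (hm' : m' ∈ G.posSub (F := F) {s | s ∈ P.M.map Fin.val})
    (h : n * (G.xg P.a c * G.xg P.b d * m) * n⁻¹ = G.xg P.a c' * G.xg P.b d' * m') :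
    G.perm n P.a = P.a ∧ G.perm n P.b = P.b := by
  set T := P.a :: P.b :: P.M with hT
  have hMT : ∀ r ∈ P.M, r ∈ T := fun r hr => List.mem_cons_of_mem _ (List.mem_cons_of_mem _ hr)
  have hMc : G.PosClosed {s | s ∈ P.M.map Fin.val} := fun r s _ _ hr hs _ e he => P.closedM r hr s hs e he
  obtain ⟨hab, haM, hbM, hMnd⟩ : P.a ≠ P.b ∧ P.a ∉ P.M ∧ P.b ∉ P.M ∧ P.M.Nodup := by
    have := P.nodup
    simp only [List.nodup_cons, List.mem_cons, not_or] at this
    exact ⟨this.1.1, this.1.2, this.2.1, this.2.2⟩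
  obtain ⟨t, ⟨ht, rfl⟩, -⟩ := G.posSub_normal_form hMc hm
  obtain ⟨t', ht', ht0, hprod⟩ := prod_eq_ordProd G P.M Fin.val (fun r => t r) (fun r hr => P.pos r (hMT r hr))
    (hMnd.map Fin.val_injective) (fun r hr s hs => P.commute G r s (hMT r hr) (hMT s hs) _ _)
  have htt : t' = t := funext fun r => by
    by_cases hr : r ∈ P.M.map Fin.val
    · obtain ⟨r', hr', rfl⟩ := List.mem_map.1 hr
      exact ht' r' hr'
    · rw [ht0 r hr, ht r (Or.inl hr)]
  set α : Fin D.nroots → F := fun r => if r = P.a then c else if r = P.b then d else t r with hα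
  have hαM : ∀ r ∈ P.M, α r = t r := fun r hr => by
    simp only [hα, if_neg (fun e : r = P.a => haM (e ▸ hr)), if_neg (fun e : r = P.b => hbM (e ▸ hr))]
  have hxT : (T.map fun r : Fin D.nroots => G.xg r (α r)).prod =
      G.xg P.a c * G.xg P.b d * G.ordProd (D.nroots / 2) t := by
    rw [← htt, ← hprod, hT, List.map_cons, List.map_cons, List.prod_cons, List.prod_cons, mul_assoc,
      List.map_congr_left (fun r hr => by rw [hαM r hr] : ∀ r ∈ P.M, G.xg (r : ℕ) (α r) = G.xg r (t r))]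
    simp [hα, Ne.symm hab]
  have hyT : G.xg P.a c' * G.xg P.b d' * m' ∈ G.posSub (F := F) {s | s ∈ T.map Fin.val} :=
    mul_mem (mul_mem (G.xg_mem_posSub (P.pos _ List.mem_cons_self) (List.mem_map_of_mem List.mem_cons_self) _)
      (G.xg_mem_posSub (P.pos _ (List.mem_cons_of_mem _ List.mem_cons_self))
        (List.mem_map_of_mem (List.mem_cons_of_mem _ List.mem_cons_self)) _))
      (G.posSub_mono (fun r _ hr => by
        obtain ⟨r', hr', rfl⟩ := List.mem_map.1 hr
        exact List.mem_map_of_mem (hMT r' hr')) hm')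
  rw [← hxT] at h
  have key : ∀ r ∈ T, α r ≠ 0 → ((G.perm n r : Fin D.nroots) : ℕ) ∈ T.map Fin.val := fun r hr h0 =>
    perm_mem_of_conj G hn T α P.pos P.nodup (fun r hr s hs => P.commute G r s hr hs _ _) (P.M_closed G)
      (h ▸ hyT) hr h0
  have hA := key P.a List.mem_cons_self (by simpa [hα] using hc)
  have hB := key P.b (List.mem_cons_of_mem _ List.mem_cons_self) (by simpa [hα, Ne.symm hab] using hd)
  rcases P.orth _ hA _ hB (fun e => hab ((G.perm n).injective (Fin.ext e))) (pairing_perm G hn P.a P.b) with ⟨h1, h2⟩ | ⟨h1, h2⟩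
  · exact ⟨Fin.ext h1, Fin.ext h2⟩
  · exfalso
    obtain ⟨e, hea, he⟩ := P.witness
    have hp := pairing_perm G hn P.a e
    rw [he, h1] at hp
    exact hea ((G.perm n).injective (Fin.ext ((P.unique _ (Fin.isLt _) hp).trans h1.symm)))

/-- Elements of `N` fixing both roots. -/
theorem PairData.stab_decomp {n : GL D.Idx F} (hn : n ∈ D.monomialSubgroup F) (ha : G.perm n P.a = P.a)
    (hb : G.perm n P.b = P.b) :
    ∃ d ∈ D.diagonalSubgroup F, ∃ k ∈ Subgroup.closure {x | ∃ i ∈ P.J, x = G.ng (D.simple i) (1 : F)}, n = d * k := by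
  obtain ⟨L, h, hh, rfl⟩ := G.exists_word hn
  induction hlen : L.length using Nat.strong_induction_on generalizing L h with
  | _ m ih =>
    by_cases hall : ∀ i, D.IsPosRoot (G.perm (G.nProd L * h) (G.simpleF i))
    · exact ⟨_, G.mem_diagonal_of_pos hn hall, 1, one_mem _, (mul_one _).symm⟩
    push Not at hall
    obtain ⟨i, hi⟩ := hall
    have hi' : D.IsNegRoot (G.perm (G.nProd L * h) (G.simpleF i)) :=
      (G.isPosRoot_or_isNegRoot (Fin.isLt _)).resolve_left hi
    have hiJ : i ∈ P.J := by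
      by_contra hiJ
      have h1 := pairing_perm G hn (G.simpleF i) P.a
      have h2 := pairing_perm G hn (G.simpleF i) P.b
      rw [ha] at h1
      rw [hb] at h2
      simp only [Good.simpleF] at h1 h2
      rw [G.pairing_simple i.2 P.a.2] at h1
      rw [G.pairing_simple i.2 P.b.2] at h2
      have h3 := P.dom _ hi'
      simp only [Good.simpleF] at h3
      rw [h1, h2] at h3
      have := P.high i hiJ
      omega
    have hnegL : D.IsNegRoot (G.perm (G.nProd L : GL D.Idx F) (G.simpleF i)) := by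
      rwa [G.perm_mul (G.nProd_mem L) (Subgroup.mem_sup_left hh), G.perm_diagonal hh, mul_one] at hi'
    obtain ⟨L', hlt, hmem⟩ := G.exchange L i hnegL
    set s := G.ng (D.simple i) (1 : F) with hs
    have hsN : s ∈ D.monomialSubgroup F := G.ng_mem_monomial (G.simple_lt i.2)
    set k := (G.nProd L' : GL D.Idx F)⁻¹ * (G.nProd L * s) with hk
    have hdiag : k * (s⁻¹ * h * s) ∈ D.diagonalSubgroup F := by
      refine mul_mem hmem ?_
      have := G.diagonal_normalized (inv_mem hsN) hh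
      rwa [inv_inv] at this
    have e : G.nProd L' * (k * (s⁻¹ * h * s)) = G.nProd L * h * s := by rw [hk]; group
    have hn' : G.nProd L' * (k * (s⁻¹ * h * s)) ∈ D.monomialSubgroup F := by rw [e]; exact mul_mem hn hsN
    have hfix : ∀ r : Fin D.nroots, D.cartan i r = 0 → G.perm s r = r := fun r hr => by
      rw [hs, G.perm_ng_simple i]
      refine Fin.ext ?_
      rw [G.sPerm_apply]
      refine G.rc_injective (G.reflectRoot_lt i.2 r.2) r.2 ?_
      rw [G.rc_reflect i.2 r.2, hr, zero_smul, sub_zero]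
    obtain ⟨d, hd, k', hk', he⟩ := ih L'.length (hlen ▸ hlt) L' _ hdiag hn'
      (by rw [e, G.perm_mul hn hsN, Equiv.Perm.mul_apply, hfix _ (P.fix i hiJ).1, ha])
      (by rw [e, G.perm_mul hn hsN, Equiv.Perm.mul_apply, hfix _ (P.fix i hiJ).2, hb]) rfl
    refine ⟨d, hd, k' * s⁻¹, mul_mem hk' (inv_mem (Subgroup.subset_closure ⟨i, hiJ, rfl⟩)), ?_⟩
    rw [← mul_assoc, ← he, e, mul_inv_cancel_right]

/-- The centraliser of `x_a(1) x_b(1)` is `K`, once the part inside the Borel subgroup is. -/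
theorem PairData.centralizer (K : Subgroup (GL D.Idx F)) (hJ : ∀ i ∈ P.J, G.ng (D.simple i) (1 : F) ∈ K)
    (hR : ∀ r ∈ P.R, ∀ t : F, G.xg r t ∈ K)
    (hle : K ≤ D.group F ⊓ Subgroup.centralizer {G.xg P.a (1 : F) * G.xg P.b 1})
    (hB : ∀ s ∈ D.posUnipotent F, ∀ y : Fin D.rank → Fˣ,
      G.torusVal y P.a = 1 → G.torusVal y P.b = 1 →
      Commute (s * G.torus y) (G.xg P.a (1 : F) * G.xg P.b 1) → s * G.torus y ∈ K) :
    D.group F ⊓ Subgroup.centralizer {G.xg P.a (1 : F) * G.xg P.b 1} = K := by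
  refine le_antisymm ?_ hle
  rintro g ⟨hg, hgz⟩
  set S : Set ℕ := {s | s ∈ P.M.map Fin.val}
  set v := G.xg P.a (1 : F) * G.xg P.b 1 with hv
  have hgz' : g * v = v * g := Subgroup.mem_centralizer_singleton_iff.mp hgz
  obtain ⟨n, hn, hcell⟩ := G.bruhat hg
  obtain ⟨b, hb, u, hu, rfl⟩ := G.bruhatCell_normal_form hn hcell
  obtain ⟨s, hs, h, hh, rfl⟩ := G.mem_borel.1 hb
  obtain ⟨z, rfl⟩ := G.mem_diagonal.1 hh
  obtain ⟨m, hm, hue⟩ := P.U_conj G (G.posSub_le_posUnipotent _ hu) 1 1 1 (one_mem _)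
  obtain ⟨m', hm', hse⟩ := P.U_conj G (inv_mem hs) 1 1 1 (one_mem _)
  rw [mul_one, ← hv] at hue
  rw [mul_one, inv_inv, ← hv] at hse
  have hMz : G.torus z⁻¹ * m' * (G.torus z⁻¹)⁻¹ ∈ G.posSub (F := F) S := by
    clear hse
    induction hm' using Subgroup.closure_induction with
    | mem x hx =>
      obtain ⟨r, t, hr, rfl⟩ := hx
      rw [G.torus_conj_xg _ hr.1.1]
      exact G.xg_mem_posSub hr.1 hr.2 _
    | one => simp
    | mul x y _ _ hx hy =>
      rw [show G.torus z⁻¹ * (x * y) * (G.torus z⁻¹)⁻¹ =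
        (G.torus z⁻¹ * x * (G.torus z⁻¹)⁻¹) * (G.torus z⁻¹ * y * (G.torus z⁻¹)⁻¹) by group]
      exact mul_mem hx hy
    | inv x _ hx =>
      rw [show G.torus z⁻¹ * x⁻¹ * (G.torus z⁻¹)⁻¹ = (G.torus z⁻¹ * x * (G.torus z⁻¹)⁻¹)⁻¹ by group]
      exact inv_mem hx
  have hmain : n * (G.xg P.a (1 : F) * G.xg P.b 1 * m) * n⁻¹ =
      G.xg P.a ((G.torusVal z⁻¹ P.a : F) * 1) * G.xg P.b ((G.torusVal z⁻¹ P.b : F) * 1) *
        (G.torus z⁻¹ * m' * (G.torus z⁻¹)⁻¹) := by
    rw [← hv, ← hue, ← G.torus_conj_xg z⁻¹ P.a.2 1, ← G.torus_conj_xg z⁻¹ P.b.2 1, map_inv, inv_inv]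
    have e1 : n * (u * v * u⁻¹) * n⁻¹ = (G.torus z)⁻¹ * (s⁻¹ * v * s) * G.torus z := by
      have := congrArg (fun x => (G.torus z)⁻¹ * s⁻¹ * x * u⁻¹ * n⁻¹) hgz'
      simp only [mul_assoc, inv_mul_cancel_left] at this ⊢
      rw [this]
      simp
    rw [e1, hse, hv]
    group
  obtain ⟨ha, hbb⟩ := P.perm_fix G hn one_ne_zero one_ne_zero hm hMz hmain
  have huK : u ∈ K := by
    refine (Subgroup.closure_le _).2 ?_ hu
    rintro x ⟨r, t, ⟨hrp, _, -, hneg⟩, rfl⟩
    refine hR r (P.low r hrp ?_) t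
    have h1 := pairing_perm G hn ⟨r, hrp.1⟩ P.a
    have h2 := pairing_perm G hn ⟨r, hrp.1⟩ P.b
    rw [ha] at h1
    rw [hbb] at h2
    simp only at h1 h2
    rw [← h1, ← h2]
    exact P.dom _ hneg
  obtain ⟨d, hd, k, hk, rfl⟩ := P.stab_decomp G hn ha hbb
  have hkK : k * u ∈ K := by
    refine mul_mem ((Subgroup.closure_le _).2 ?_ hk) huK
    rintro x ⟨i, hi, rfl⟩
    exact hJ i hi
  have hku : Commute (k * u) v := Subgroup.mem_centralizer_singleton_iff.mp (hle hkK).2
  obtain ⟨y, hy⟩ := G.mem_diagonal.1 (mul_mem (G.mem_diagonal.2 ⟨z, rfl⟩) hd)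
  have hsy : Commute (s * G.torus y) v := by
    change _ = _
    rw [← hy]
    refine mul_right_cancel (b := k * u) ?_
    calc s * (G.torus z * d) * v * (k * u) = s * (G.torus z * d) * (k * u * v) := by rw [hku.eq]; group
      _ = s * G.torus z * (d * k) * u * v := by group
      _ = _ := by rw [hgz']; group
  rw [show s * G.torus z * (d * k) * u = s * (G.torus z * d) * (k * u) by group, hy]
  refine mul_mem ?_ hkK
  obtain ⟨m2, hm2, h2⟩ := P.U_conj G hs ((G.torusVal y P.a : F) * 1) ((G.torusVal y P.b : F) * 1) 1 (one_mem _)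
  rw [mul_one, ← G.torus_conj_xg y P.a.2 1, ← G.torus_conj_xg y P.b.2 1] at h2
  have hc := hsy.eq
  rw [← mul_inv_eq_iff_eq_mul] at hc
  have h3 : G.xg P.a ((G.torusVal y P.a : F) * 1) * G.xg P.b ((G.torusVal y P.b : F) * 1) * m2 = v := by
    rw [← G.torus_conj_xg y P.a.2 1, ← G.torus_conj_xg y P.b.2 1, ← h2]
    conv_rhs => rw [← hc, hv]
    group
  obtain ⟨hA1, hB1⟩ : (G.torusVal y P.a : F) = 1 ∧ (G.torusVal y P.b : F) = 1 := by
    set A := (G.torusVal y P.a : F)
    set B := (G.torusVal y P.b : F)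
    rw [mul_one, mul_one, hv] at h3
    obtain ⟨hab, haM, hbM⟩ : P.a ≠ P.b ∧ P.a ∉ P.M ∧ P.b ∉ P.M := by
      have := P.nodup
      simp only [List.nodup_cons, List.mem_cons, not_or] at this
      exact ⟨this.1.1, this.1.2, this.2.1⟩
    obtain ⟨t, ⟨ht, hmt⟩, -⟩ := G.posSub_normal_form
      (fun r s _ _ hr hs _ e he => P.closedM r hr s hs e he : G.PosClosed S) hm2
    have hl : ∀ (a' b' : F) (f : Fin D.nroots → F), ∃ w : ℕ → F, w P.a = a' ∧ w P.b = b' ∧
        G.xg P.a a' * G.xg P.b b' * (P.M.map fun r : Fin D.nroots => G.xg r (f r)).prod =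
          G.ordProd (D.nroots / 2) w := by
      intro a' b' f
      let f' : Fin D.nroots → F := fun r => if r = P.a then a' else if r = P.b then b' else f r
      obtain ⟨w, hw, -, hwe⟩ := prod_eq_ordProd G (P.a :: P.b :: P.M) Fin.val f' P.pos
        (P.nodup.map Fin.val_injective) (fun r hr s hs => P.commute G r s hr hs _ _)
      refine ⟨w, (hw P.a List.mem_cons_self).trans (by simp [f']),
        (hw P.b (List.mem_cons_of_mem _ List.mem_cons_self)).trans (by simp [f', Ne.symm hab]), ?_⟩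
      rw [← hwe, List.map_cons, List.map_cons, List.prod_cons, List.prod_cons, mul_assoc,
        List.map_congr_left (fun r hr => by
          simp only [f', if_neg (fun e : r = P.a => haM (e ▸ hr)), if_neg (fun e : r = P.b => hbM (e ▸ hr))] :
          ∀ r ∈ P.M, G.xg (r : ℕ) (f' r) = G.xg r (f r))]
      simp [f', Ne.symm hab]
    obtain ⟨t', ht', ht0, hprod⟩ := prod_eq_ordProd G P.M Fin.val (fun r => t r)
      (fun r hr => P.pos r (List.mem_cons_of_mem _ (List.mem_cons_of_mem _ hr)))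
      ((List.Nodup.of_cons (List.Nodup.of_cons P.nodup)).map Fin.val_injective)
      (fun r hr s hs => P.commute G r s (List.mem_cons_of_mem _ (List.mem_cons_of_mem _ hr))
        (List.mem_cons_of_mem _ (List.mem_cons_of_mem _ hs)) _ _)
    have htt : t' = t := funext fun r => by
      by_cases hr : r ∈ P.M.map Fin.val
      · obtain ⟨r', hr', rfl⟩ := List.mem_map.1 hr
        exact ht' r' hr'
      · rw [ht0 r hr, ht r (Or.inl hr)]
    obtain ⟨w1, wa1, wb1, we1⟩ := hl A B (fun r => t r)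
    obtain ⟨w2, wa2, wb2, we2⟩ := hl 1 1 (fun _ => 0)
    rw [hprod, htt, ← hmt] at we1
    rw [List.prod_eq_one (by
      intro x hx
      obtain ⟨r, -, rfl⟩ := List.mem_map.1 hx
      exact G.xg_zero _), mul_one] at we2
    have e12 := G.ordProd_injective _ le_rfl w1 w2 (we1.symm.trans (h3.trans we2))
    constructor
    · rw [← wa1, ← wa2]; exact e12 _ (G.isPosRoot_iff.1 (P.pos _ List.mem_cons_self)).1 P.a.2
    · rw [← wb1, ← wb2]
      exact e12 _ (G.isPosRoot_iff.1 (P.pos _ (List.mem_cons_of_mem _ List.mem_cons_self))).1 P.b.2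
  exact hB s hs y (Units.ext hA1) (Units.ext hB1) hsy

end Cfsg.Agent.H65
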